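import Mathlib
import Cfsg.Agent.H738.C3.Red

/-!
# S1920, case A: the quotient `B = H / O(H)` (helper275)

`conj_s`, `sq_comm`, `inv_s` : `s` is inverted exactly by the odd permutations;
`in_z` : `[b, n] ∈ <s>` for all `n ∈ N` gives `[b, n] ∈ <z>` for all `n ∈ N`.
-/

set_option autoImplicit false

open Subgroup Equiv

namespace Cfsg.Agent.H275.Co3

open Cfsg.Agent.H738.C3

variable {B : Type*} [Group B] {N : Subgroup B} {z s : B} {φ : B →* Perm (Fin 6)}

theorem zN (D : BD N z s φ) : z ∈ N := by rw [← D.ss]; exact mul_mem D.sN D.sN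

theorem ord_z (D : BD N z s φ) : orderOf z = 2 := orderOf_eq_prime (by rw [pow_two]; exact D.zz) D.z1

theorem zs (D : BD N z s φ) : z * s = s * z := by rw [← D.ss, mul_assoc]

theorem pow_four (D : BD N z s φ) : s ^ 4 = 1 := by
  have h : s ^ 4 = (s * s) * (s * s) := by simp only [pow_succ, pow_zero, one_mul, mul_assoc]
  rw [h, D.ss, D.zz]

/-- the elements of `<s>` -/
theorem mem_zs (D : BD N z s φ) {x : B} (h : x ∈ zpowers s) : x = 1 ∨ x = z ∨ x = s ∨ x = s * z := by
  obtain ⟨k, rfl⟩ := mem_zpowers_iff.1 h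
  have h4 : s ^ (4 : ℤ) = 1 := by rw [zpow_ofNat]; exact pow_four D
  have hk : s ^ k = s ^ (k % 4) := by
    conv_lhs => rw [← Int.emod_add_mul_ediv k 4]
    rw [zpow_add, zpow_mul, h4, one_zpow, mul_one]
  rw [hk]
  have h5 := Int.emod_nonneg k (show (4 : ℤ) ≠ 0 by norm_num)
  have h6 := Int.emod_lt_of_pos k (show (0 : ℤ) < 4 by norm_num)
  have h7 : k % 4 = 0 ∨ k % 4 = 1 ∨ k % 4 = 2 ∨ k % 4 = 3 := by omega
  rcases h7 with h7 | h7 | h7 | h7
  · left; rw [h7, zpow_zero]
  · right; right; left; rw [h7, zpow_one]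
  · right; left; rw [h7, ← D.ss, zpow_ofNat, pow_two]
  · right; right; right; rw [h7, ← D.ss, zpow_ofNat, pow_succ, pow_two, mul_assoc]

/-- `s` has order 4 -/
theorem ord_s (D : BD N z s φ) : orderOf s = 4 := by
  have : Fact (Nat.Prime 2) := ⟨Nat.prime_two⟩
  refine orderOf_eq_prime_pow (p := 2) (n := 1) ?_ (pow_four D)
  rw [pow_one, pow_two, D.ss]
  exact D.z1

variable [hN : N.Normal]

theorem conj_s (D : BD N z s φ) (b : B) : b * s * b⁻¹ = s ∨ b * s * b⁻¹ = s * z := by
  have h1 : b * s * b⁻¹ ∈ N := hN.conj_mem s D.sN b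
  have h2 : b * s * b⁻¹ ∈ zpowers s := by
    refine D.cen _ h1 fun m hm => ?_
    have h3 : b⁻¹ * m * b ∈ N := by
      have := hN.conj_mem m hm b⁻¹
      rwa [inv_inv] at this
    have h4 := D.scen _ h3
    have e1 : b * s * b⁻¹ * m = b * (s * (b⁻¹ * m * b)) * b⁻¹ := by group
    have e2 : m * (b * s * b⁻¹) = b * ((b⁻¹ * m * b) * s) * b⁻¹ := by group
    rw [e1, e2, h4]
  have h5 : (b * s * b⁻¹) * (b * s * b⁻¹) = z := by
    have : (b * s * b⁻¹) * (b * s * b⁻¹) = b * (s * s) * b⁻¹ := by group
    rw [this, D.ss, D.zc b, mul_inv_cancel_right]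
  rcases mem_zs D h2 with h | h | h | h
  · rw [h, one_mul] at h5
    exact absurd h5.symm D.z1
  · rw [h, D.zz] at h5
    exact absurd h5.symm D.z1
  · exact Or.inl h
  · exact Or.inr h

/-- the square of every element commutes with `s` -/
theorem sq_comm (D : BD N z s φ) (b : B) : b * b * s = s * (b * b) := by
  rcases conj_s D b with h | h
  · rw [mul_inv_eq_iff_eq_mul] at h
    rw [mul_assoc, h, ← mul_assoc, h, mul_assoc]
  · rw [mul_inv_eq_iff_eq_mul] at h
    have h1 : b * (s * z * b) = s * (b * b) := by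
      calc b * (s * z * b) = (b * s) * (z * b) := by group
        _ = (s * z * b) * (z * b) := by rw [h]
        _ = s * (z * (b * z)) * b := by group
        _ = s * (z * (z * b)) * b := by rw [D.zc b]
        _ = s * (z * z) * (b * b) := by group
        _ = s * (b * b) := by rw [D.zz, mul_one]
    rw [mul_assoc, h, h1]

/-- `s` is centralised exactly by the elements which induce an even permutation. -/
theorem inv_s (D : BD N z s φ) (b : B) : Perm.sign (φ b) = 1 ↔ b * s = s * b := by
  set K : Subgroup B := centralizer ({s} : Set B) with hK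
  have hmemK : ∀ x : B, x ∈ K ↔ x * s = s * x := by
    intro x
    rw [hK, mem_centralizer_singleton_iff]
  have hKn : K.Normal := by
    constructor
    intro x hx b
    rw [hmemK] at hx ⊢
    rcases conj_s D b⁻¹ with h | h
    · rw [inv_inv, mul_assoc, inv_mul_eq_iff_eq_mul] at h
      -- s * b = b * s
      calc b * x * b⁻¹ * s = b * x * (b⁻¹ * s * b) * b⁻¹ := by group
        _ = b * x * s * b⁻¹ := by rw [mul_assoc b⁻¹, h, inv_mul_cancel_left]
        _ = b * (x * s) * b⁻¹ := by group
        _ = b * (s * x) * b⁻¹ := by rw [hx]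
        _ = (b * s) * x * b⁻¹ := by group
        _ = (s * b) * x * b⁻¹ := by rw [h]
        _ = s * (b * x * b⁻¹) := by group
    · rw [inv_inv] at h
      have h2 : x * z = z * x := D.zc x
      have h3 : b * s * b⁻¹ = s * z := by
        rcases conj_s D b with h3 | h3
        · exfalso
          rw [mul_inv_eq_iff_eq_mul] at h3
          have : b⁻¹ * s * b = s := by rw [mul_assoc, ← h3, inv_mul_cancel_left]
          rw [this] at h
          exact D.z1 (mul_left_cancel (h.symm.trans (mul_one s).symm))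
        · exact h3
      calc b * x * b⁻¹ * s = b * x * (b⁻¹ * s * b) * b⁻¹ := by group
        _ = b * x * (s * z) * b⁻¹ := by rw [h]
        _ = b * ((x * s) * z) * b⁻¹ := by group
        _ = b * ((s * x) * z) * b⁻¹ := by rw [hx]
        _ = b * (s * (x * z)) * b⁻¹ := by group
        _ = b * (s * (z * x)) * b⁻¹ := by rw [h2]
        _ = (b * s * b⁻¹) * (b * z * b⁻¹) * (b * x * b⁻¹) := by group
        _ = s * z * z * (b * x * b⁻¹) := by rw [h3, D.zc b, mul_inv_cancel_right]
        _ = s * (b * x * b⁻¹) := by rw [mul_assoc s z z, D.zz, mul_one]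
  have hNK : N ≤ K := fun n hn => (hmemK n).2 (D.scen n hn)
  -- a 3-cycle is in the image
  obtain ⟨c, hc⟩ := D.surj (Equiv.swap 0 1 * Equiv.swap 1 2)
  have h1 : c * c ∈ K := by rw [hmemK]; exact sq_comm D c
  have h2 : φ (c * c) ≠ 1 := by
    rw [map_mul, hc]
    decide
  have hA : alternatingGroup (Fin 6) ≤ K.map φ := D.image_ge hKn h1 h2
  have hback : ∀ x : B, φ x ∈ K.map φ → x ∈ K := by
    intro x hx
    obtain ⟨k, hk, hkx⟩ := hx
    have h3 : k⁻¹ * x ∈ N := by
      rw [← D.ker, map_mul, map_inv, hkx, inv_mul_cancel]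
    have h4 : x = k * (k⁻¹ * x) := by group
    rw [h4]
    exact mul_mem hk (hNK h3)
  rw [← hmemK]
  constructor
  · intro h
    exact hback b (hA (Perm.mem_alternatingGroup.2 h))
  · intro h
    by_contra hsg
    have h3 : K.map φ = ⊤ := by
      rw [eq_top_iff]
      intro π _
      rcases Int.units_eq_one_or (Perm.sign π) with h4 | h4
      · exact hA (Perm.mem_alternatingGroup.2 h4)
      · have h5 : Perm.sign (φ b) = -1 := by
          rcases Int.units_eq_one_or (Perm.sign (φ b)) with h5 | h5
          · exact absurd h5 hsg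
          · exact h5
        have h6 : (φ b)⁻¹ * π ∈ K.map φ := by
          apply hA
          rw [Perm.mem_alternatingGroup, map_mul, Perm.sign_inv, h4, h5]
          rfl
        have h7 : π = φ b * ((φ b)⁻¹ * π) := by group
        rw [h7]
        exact mul_mem ⟨b, h, rfl⟩ h6
    rcases D.center s (fun x => (hmemK x).1 (hback x (by rw [h3]; exact mem_top _))) with h4 | h4
    · exact D.s_ne.1 h4
    · exact D.s_ne.2 h4

omit hN in
/-- commutators in `<s>` are in `<z>` -/
theorem in_z (D : BD N z s φ) {b n : B} (hn : n ∈ N) (h : b * n * b⁻¹ * n⁻¹ ∈ zpowers s) :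
    b * n * b⁻¹ * n⁻¹ ∈ zpowers z := by
  have hsq : (b * n * b⁻¹) * (b * n * b⁻¹) = n * n := by
    have e : (b * n * b⁻¹) * (b * n * b⁻¹) = b * (n * n) * b⁻¹ := by group
    rw [e]
    rcases D.sq n hn with h2 | h2
    · rw [h2, mul_one, mul_inv_cancel]
    · rw [h2, D.zc b, mul_inv_cancel_right]
  rcases mem_zs D h with h | h | h | h
  · rw [h]; exact one_mem _
  · rw [h]; exact mem_zpowers z
  · exfalso
    -- `b n b⁻¹ = s n` has the wrong square
    rw [mul_inv_eq_iff_eq_mul] at h
    rw [h] at hsq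
    have h2 : s * n * (s * n) = z * (n * n) := by
      calc s * n * (s * n) = s * (n * s) * n := by group
        _ = s * (s * n) * n := by rw [D.scen n hn]
        _ = (s * s) * (n * n) := by group
        _ = z * (n * n) := by rw [D.ss]
    rw [h2] at hsq
    exact D.z1 (mul_eq_right.1 hsq)
  · exfalso
    rw [mul_inv_eq_iff_eq_mul] at h
    rw [h] at hsq
    have h2 : s * z * n * (s * z * n) = z * (n * n) := by
      have hzn : z * n = n * z := (D.zc n).symm
      calc s * z * n * (s * z * n) = s * (z * n) * s * z * n := by group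
        _ = s * (n * z) * s * z * n := by rw [hzn]
        _ = s * n * (z * s) * z * n := by group
        _ = s * n * (s * z) * z * n := by rw [zs D]
        _ = s * (n * s) * (z * z) * n := by group
        _ = s * (s * n) * (z * z) * n := by rw [D.scen n hn]
        _ = (s * s) * n * (z * z) * n := by group
        _ = z * (n * n) := by rw [D.ss, D.zz, mul_one, mul_assoc]
    rw [h2] at hsq
    exact D.z1 (mul_eq_right.1 hsq)

end Cfsg.Agent.H275.Co3
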