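import Mathlib
import Cfsg.Prelude.Def_ClassificationK
import Cfsg.Prelude.Def_CaseTheorems
import Cfsg.Agent.H275.Co3.Bar
import Cfsg.Agent.H314.Co3.Def
import Cfsg.Agent.EvenType.StrongP
import Cfsg.Agent.Lib.HallHigman

/-!
# S1920: the reduction to case A (helper275)

* `inv_sets` : `B` is transitive on the nontrivial elements of `N / <s>`; `P_cases` : the normal subgroups `K` of `B`
  with `z ∈ K ≤ N` are `<z>`, `<s>` and `N`;
* `two_of` : the Sylow 2-subgroup of `H` is one of `G`, of order `2 ^ 10` (from: `N` is characteristic in a Sylow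
  2-subgroup of `B`, hypothesis `hchar`);
* `exists_CA` : the configuration `CA` in `G`.
-/

set_option autoImplicit false

open Subgroup Equiv

universe u

namespace Cfsg.Agent.H275.Co3

open Cfsg.Agent.H738.C3

section cases

/-- fixed points of an element of order 5 on an invariant set -/
theorem fix_mod {Q : Type*} [Group Q] [Finite Q] {x : Q} (hx : x ^ 5 = 1) (Ω : Set Q)
    (hΩ : ∀ w ∈ Ω, x * w * x⁻¹ ∈ Ω) : Nat.card Ω ≡ Nat.card {w : Q | w ∈ Ω ∧ x * w * x⁻¹ = w} [MOD 5] := by
  classical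
  have : Fact (Nat.Prime 5) := ⟨Nat.prime_five⟩
  have := Fintype.ofFinite Ω
  let f : Function.End Ω := fun w => ⟨x * w * x⁻¹, hΩ w w.2⟩
  have hpow : ∀ (n : ℕ) (w : Ω), ((f ^ n) w : Q) = x ^ n * w * (x ^ n)⁻¹ := by
    intro n
    induction n with
    | zero => intro w; simp only [pow_zero, one_mul, inv_one, mul_one]; rfl
    | succ n ih =>
      intro w
      have h1 : (f ^ (n + 1)) w = (f ^ n) (f w) := by rw [pow_succ]; rfl
      rw [h1, ih]
      change x ^ n * (x * w * x⁻¹) * (x ^ n)⁻¹ = _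
      rw [pow_succ]; group
  have hf : f ^ 5 ^ 1 = 1 := by
    funext w
    apply Subtype.ext
    rw [pow_one, hpow, hx, one_mul, inv_one, mul_one]
    rfl
  have h := Equiv.Perm.card_fixedPoints_modEq hf
  rw [← Nat.card_eq_fintype_card, ← Nat.card_eq_fintype_card] at h
  have e : Nat.card (Function.fixedPoints f) = Nat.card {w : Q | w ∈ Ω ∧ x * w * x⁻¹ = w} :=
    Nat.card_congr
      { toFun := fun w => ⟨w.1.1, w.1.2, congrArg Subtype.val w.2⟩
        invFun := fun w => ⟨⟨w.1, w.2.1⟩, Subtype.ext w.2.2⟩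
        left_inv := fun _ => rfl
        right_inv := fun _ => rfl }
  rwa [e] at h

theorem card_map_mul {G : Type*} [Group G] {G' : Type*} [Group G'] (f : G →* G') (K : Subgroup G) (hK : f.ker ≤ K) :
    Nat.card (K.map f) * Nat.card f.ker = Nat.card K := by
  have h1 := (f.comp K.subtype).ker.card_mul_index
  rw [index_ker, MonoidHom.range_comp, range_subtype] at h1
  have h2 : (f.comp K.subtype).ker = f.ker.subgroupOf K := by
    ext x
    rfl
  rw [h2, Nat.card_congr (subgroupOfEquivOfLe hK).toEquiv, mul_comm] at h1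
  exact h1

variable {B : Type*} [Group B] {N : Subgroup B} {z s : B} {φ : B →* Perm (Fin 6)}

/-- an element of order 5 -/
theorem exists_five (D : BD N z s φ) : ∃ x : B, x ^ 5 = 1 ∧ φ x ≠ 1 := by
  obtain ⟨b, hb⟩ := D.surj (c[0, 1, 2, 3, 4] : Perm (Fin 6))
  have h5 : (c[0, 1, 2, 3, 4] : Perm (Fin 6)) ^ 5 = 1 := by decide +kernel
  refine ⟨b ^ 64, ?_, ?_⟩
  · rw [← pow_mul, mul_comm, pow_mul]
    have h1 : b ^ 5 ∈ N := by rw [← D.ker, map_pow, hb, h5]
    have h2 : (⟨b ^ 5, h1⟩ : N) ^ Nat.card N = 1 := pow_card_eq_one'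
    rw [D.card] at h2
    exact congrArg Subtype.val h2
  · rw [map_pow, hb]
    have h6 : (c[0, 1, 2, 3, 4] : Perm (Fin 6)) ^ 64 = (c[0, 1, 2, 3, 4] : Perm (Fin 6)) ^ 4 := by
      rw [show 64 = 5 * 12 + 4 from rfl, pow_add, pow_mul, h5, one_pow, one_mul]
    rw [h6]
    decide +kernel

theorem normal_s [hN : N.Normal] (D : BD N z s φ) : (zpowers s).Normal := by
  constructor
  intro x hx b
  obtain ⟨k, rfl⟩ := mem_zpowers_iff.1 hx
  rw [← conj_zpow]
  refine zpow_mem ?_ k
  rcases conj_s D b with h | h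
  · rw [h]; exact mem_zpowers s
  · rw [h]; exact mul_mem (mem_zpowers s) (by rw [← D.ss]; exact mul_mem (mem_zpowers s) (mem_zpowers s))

/-- no invariant set with five elements -/
theorem no_five (D : BD N z s φ) {x : B} (hx : x ^ 5 = 1) {Q : Type*} [Group Q] [Finite Q] (f : B →* Q) (Ω : Set Q)
    (hinv : ∀ b, ∀ w ∈ Ω, f b * w * (f b)⁻¹ ∈ Ω) (htriv : ∀ n ∈ N, ∀ w ∈ Ω, f n * w * (f n)⁻¹ = w)
    (hfix : ∀ w ∈ Ω, f x * w * (f x)⁻¹ ≠ w) : Nat.card Ω ≠ 5 := by
  intro h5
  let act : MulAction B Ω :=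
    { smul := fun b w => ⟨f b * w * (f b)⁻¹, hinv b w w.2⟩
      one_smul := fun w => Subtype.ext (by change f 1 * w * (f 1)⁻¹ = w; simp)
      mul_smul := fun a b w => Subtype.ext (by
        change f (a * b) * w * (f (a * b))⁻¹ = f a * (f b * w * (f b)⁻¹) * (f a)⁻¹
        rw [map_mul]; group) }
  let ρ : B →* Perm Ω := MulAction.toPermHom B Ω
  have hρ : ∀ b, b ∈ ρ.ker ↔ ∀ w ∈ Ω, f b * w * (f b)⁻¹ = w := by
    intro b
    constructor
    · intro hb w hw
      have h1 : ρ b ⟨w, hw⟩ = ⟨w, hw⟩ := by rw [MonoidHom.mem_ker.1 hb]; rfl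
      exact congrArg Subtype.val h1
    · intro h
      rw [MonoidHom.mem_ker]
      ext w
      exact h w w.2
  have hNK : N ≤ ρ.ker := fun n hn => (hρ n).2 (htriv n hn)
  have hΩ : Nonempty Ω := by
    by_contra hne
    have : IsEmpty Ω := not_nonempty_iff.1 hne
    rw [Nat.card_of_isEmpty] at h5
    omega
  obtain ⟨w⟩ := hΩ
  have hxK : x ∉ ρ.ker := fun h => hfix w w.2 ((hρ x).1 h w w.2)
  have hxA : φ x ∈ alternatingGroup (Fin 6) := by
    rw [Perm.mem_alternatingGroup]
    have h1 : Perm.sign (φ x) ^ 5 = 1 := by rw [← map_pow, ← map_pow, hx, map_one, map_one]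
    rcases Int.units_eq_one_or (Perm.sign (φ x)) with h | h
    · exact h
    · rw [h] at h1
      exact absurd h1 (by decide)
  have hKN : ρ.ker ≤ N := by
    intro k hk
    by_contra hkN
    have h1 := D.image_ge (ρ.normal_ker) hk (fun h => hkN ((D.ker k).1 h))
    obtain ⟨y, hy, hyx⟩ := h1 hxA
    apply hxK
    have h2 : y⁻¹ * x ∈ N := by rw [← D.ker, map_mul, map_inv, hyx, inv_mul_cancel]
    have h3 : x = y * (y⁻¹ * x) := by group
    rw [h3]
    exact mul_mem hy (hNK h2)
  have hK : ρ.ker = N := le_antisymm hKN hNK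
  have h6 : N.index = 720 := by
    have h7 : φ.ker = N := by
      ext b
      rw [MonoidHom.mem_ker, D.ker]
    rw [← h7, index_ker, MonoidHom.range_eq_top.2 D.surj, card_top, Nat.card_perm, Nat.card_fin]
    rfl
  have h8 : Nat.card ρ.range ∣ Nat.card (Perm Ω) := card_subgroup_dvd_card _
  rw [← index_ker, hK, h6, Nat.card_perm, h5] at h8
  exact absurd h8 (by decide)

theorem mem_map_iff (D : BD N z s φ) [hS : (zpowers s).Normal] {n : B} :
    QuotientGroup.mk' (zpowers s) n ∈ N.map (QuotientGroup.mk' (zpowers s)) ↔ n ∈ N := by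
  constructor
  · rintro ⟨m, hm, hmn⟩
    have h1 : m⁻¹ * n ∈ zpowers s := QuotientGroup.eq.1 hmn
    have h2 : m⁻¹ * n ∈ N := (zpowers_le.2 D.sN) h1
    have h3 : n = m * (m⁻¹ * n) := by group
    rw [h3]
    exact mul_mem hm h2
  · intro h
    exact mem_map_of_mem _ h

/-- the only fixed point of `x` on `N / <s>` is trivial; an invariant subgroup of `N / <s>` has order 1 or 16 -/
theorem fix_one [Finite B] [hN : N.Normal] (D : BD N z s φ)
    (hA : ∀ b, (∀ n ∈ N, b * n * b⁻¹ * n⁻¹ ∈ zpowers s) → b ∈ N) {x : B} (hx : x ^ 5 = 1) (hφ : φ x ≠ 1)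
    {n : B} (hn : n ∈ N) (h : x * n * x⁻¹ * n⁻¹ ∈ zpowers s) : n ∈ zpowers s := by
  have hS := normal_s D
  set π := QuotientGroup.mk' (zpowers s) with hπ
  have hker : π.ker = zpowers s := QuotientGroup.ker_mk' _
  have hV : Nat.card (N.map π) = 16 := by
    have h1 := card_map_mul π N (by rw [hker]; exact zpowers_le.2 D.sN)
    rw [hker, Nat.card_zpowers, ord_s D, D.card] at h1
    omega
  have hxx : (π x) ^ 5 = 1 := by rw [← map_pow, hx, map_one]
  have hnV := hN.map π (QuotientGroup.mk'_surjective _)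
  let C : Subgroup (B ⧸ zpowers s) := N.map π ⊓ centralizer {π x}
  have hC : ∀ w, w ∈ C ↔ w ∈ (N.map π : Set (B ⧸ zpowers s)) ∧ π x * w * (π x)⁻¹ = w := by
    intro w
    rw [mem_inf, mem_centralizer_singleton_iff, mul_inv_eq_iff_eq_mul]
    constructor
    · rintro ⟨h1, h2⟩; exact ⟨h1, h2.symm⟩
    · rintro ⟨h1, h2⟩; exact ⟨h1, h2.symm⟩
  have h1 := fix_mod hxx (N.map π : Set (B ⧸ zpowers s)) (fun w hw => hnV.conj_mem w hw _)
  have h2 : Nat.card {w : B ⧸ zpowers s | w ∈ (N.map π : Set (B ⧸ zpowers s)) ∧ π x * w * (π x)⁻¹ = w} = Nat.card C := by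
    refine Nat.card_congr (Equiv.subtypeEquivRight fun w => ?_)
    exact (hC w).symm
  rw [h2] at h1
  have h3 : Nat.card C ∣ 16 := by rw [← hV]; exact card_dvd_of_le inf_le_left
  have h1' : 16 ≡ Nat.card C [MOD 5] := by
    rw [← hV]; exact h1
  have h4 : Nat.card C = 1 ∨ Nat.card C = 16 := by
    have h5 : Nat.card C ∈ Nat.divisors 16 := Nat.mem_divisors.2 ⟨h3, by norm_num⟩
    have h6 : Nat.divisors 16 = {1, 2, 4, 8, 16} := by decide +kernel
    rw [h6] at h5
    simp only [Finset.mem_insert, Finset.mem_singleton] at h5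
    rcases h5 with h5 | h5 | h5 | h5 | h5 <;> rw [h5] at h1'
    · exact Or.inl h5
    · exact absurd h1' (by decide)
    · exact absurd h1' (by decide)
    · exact absurd h1' (by decide)
    · exact Or.inr h5
  rcases h4 with h4 | h4
  · have h5 : C = ⊥ := Subgroup.card_eq_one.1 h4
    have h6 : π n ∈ C := by
      rw [hC]
      refine ⟨mem_map_of_mem π hn, ?_⟩
      have h7 : π (x * n * x⁻¹ * n⁻¹) = 1 := by rw [← MonoidHom.mem_ker, hker]; exact h
      rw [map_mul, map_mul, map_mul, map_inv, map_inv, mul_inv_eq_one] at h7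
      exact h7
    rw [h5, mem_bot] at h6
    rw [← hker]
    exact h6
  · exfalso
    have h5 : C = N.map π := by
      refine Subgroup.eq_of_le_of_card_ge inf_le_left ?_
      rw [h4, hV]
    apply hφ
    rw [D.ker]
    apply hA
    intro m hm
    have h6 : π m ∈ C := by rw [h5]; exact mem_map_of_mem π hm
    have h7 := ((hC _).1 h6).2
    rw [← hker, MonoidHom.mem_ker, map_mul, map_mul, map_mul, map_inv, map_inv, h7, mul_inv_cancel]

theorem card_V (D : BD N z s φ) [hS : (zpowers s).Normal] : Nat.card (N.map (QuotientGroup.mk' (zpowers s))) = 16 := by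
  have hker : (QuotientGroup.mk' (zpowers s)).ker = zpowers s := QuotientGroup.ker_mk' _
  have h1 := card_map_mul (QuotientGroup.mk' (zpowers s)) N (by rw [hker]; exact zpowers_le.2 D.sN)
  rw [hker, Nat.card_zpowers, ord_s D, D.card] at h1
  omega

/-- **`B` is transitive on the involutions of `N / <s>`** -/
theorem inv_sets [Finite B] [hN : N.Normal] (D : BD N z s φ)
    (hA : ∀ b, (∀ n ∈ N, b * n * b⁻¹ * n⁻¹ ∈ zpowers s) → b ∈ N) [hS : (zpowers s).Normal]
    (Ω : Set (B ⧸ zpowers s)) (hΩ : ∀ w ∈ Ω, w ∈ N.map (QuotientGroup.mk' (zpowers s)) ∧ w ≠ 1)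
    (hinv : ∀ b, ∀ w ∈ Ω, QuotientGroup.mk' (zpowers s) b * w * (QuotientGroup.mk' (zpowers s) b)⁻¹ ∈ Ω) :
    Ω = ∅ ∨ ∀ w ∈ N.map (QuotientGroup.mk' (zpowers s)), w ≠ 1 → w ∈ Ω := by
  obtain ⟨x, hx, hφ⟩ := exists_five D
  set π := QuotientGroup.mk' (zpowers s) with hπ
  have hker : π.ker = zpowers s := QuotientGroup.ker_mk' _
  have hV : Nat.card (N.map π) = 16 := card_V D
  have hxx : (π x) ^ 5 = 1 := by rw [← map_pow, hx, map_one]
  have hnV := hN.map π (QuotientGroup.mk'_surjective _)
  have key : ∀ Ω : Set (B ⧸ zpowers s), (∀ w ∈ Ω, w ∈ N.map π ∧ w ≠ 1) →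
      (∀ b, ∀ w ∈ Ω, π b * w * (π b)⁻¹ ∈ Ω) → 5 ∣ Nat.card Ω ∧ Nat.card Ω ≠ 5 := by
    intro Ω hΩ hinv
    have hfix : ∀ w ∈ Ω, π x * w * (π x)⁻¹ ≠ w := by
      intro w hw h
      obtain ⟨⟨n, hn, rfl⟩, hw1⟩ := hΩ w hw
      have h1 : x * n * x⁻¹ * n⁻¹ ∈ zpowers s := by
        rw [← hker, MonoidHom.mem_ker, map_mul, map_mul, map_mul, map_inv, map_inv, h, mul_inv_cancel]
      have h2 := fix_one D hA hx hφ hn h1
      rw [← hker, MonoidHom.mem_ker] at h2
      exact hw1 h2
    constructor
    · have h1 := fix_mod hxx Ω (fun w hw => hinv x w hw)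
      have h2 : IsEmpty {w : B ⧸ zpowers s | w ∈ Ω ∧ π x * w * (π x)⁻¹ = w} :=
        ⟨fun w => hfix w.1 w.2.1 w.2.2⟩
      rw [Nat.card_of_isEmpty (α := {w : B ⧸ zpowers s | w ∈ Ω ∧ π x * w * (π x)⁻¹ = w})] at h1
      exact (Nat.modEq_zero_iff_dvd).1 h1
    · refine no_five D hx π Ω hinv ?_ hfix
      intro n hn w hw
      obtain ⟨⟨m, hm, rfl⟩, -⟩ := hΩ w hw
      rw [mul_inv_eq_iff_eq_mul, ← map_mul, ← map_mul]
      rcases D.comm n hn m hm with h | h
      · rw [h]
      · rw [h, map_mul]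
        have h3 : π z = 1 := by
          rw [← MonoidHom.mem_ker, hker, ← D.ss]
          exact mul_mem (mem_zpowers s) (mem_zpowers s)
        rw [h3, one_mul]
  obtain ⟨h5, h5'⟩ := key Ω hΩ hinv
  obtain ⟨h6, h6'⟩ := key {w | (w ∈ N.map π ∧ w ≠ 1) ∧ w ∉ Ω} (fun w hw => hw.1) (by
    rintro b w ⟨⟨h1, h2⟩, h3⟩
    refine ⟨⟨hnV.conj_mem w h1 _, ?_⟩, ?_⟩
    · intro h
      rw [mul_inv_eq_one] at h
      exact h2 (mul_left_cancel (h.trans (mul_one _).symm))
    · intro h
      apply h3
      have h4 := hinv b⁻¹ _ h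
      have e : π b⁻¹ * (π b * w * (π b)⁻¹) * (π b⁻¹)⁻¹ = w := by rw [map_inv]; group
      rwa [e] at h4)
  rw [Nat.card_coe_set_eq] at h5 h5' h6 h6'
  have h7 : (N.map π : Set (B ⧸ zpowers s)).ncard = 16 := by
    rw [← Nat.card_coe_set_eq]; exact hV
  have h8 : (N.map π : Set (B ⧸ zpowers s)) = insert 1 (Ω ∪ {w | (w ∈ N.map π ∧ w ≠ 1) ∧ w ∉ Ω}) := by
    ext w
    simp only [SetLike.mem_coe, Set.mem_insert_iff, Set.mem_union, Set.mem_ofPred_eq]
    constructor
    · intro hw
      by_cases h : w = 1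
      · exact Or.inl h
      · by_cases h' : w ∈ Ω
        · exact Or.inr (Or.inl h')
        · exact Or.inr (Or.inr ⟨⟨hw, h⟩, h'⟩)
    · rintro (h | h | h)
      · rw [h]; exact one_mem _
      · exact (hΩ w h).1
      · exact h.1.1
  rw [h8, Set.ncard_insert_of_notMem, Set.ncard_union_eq] at h7
  · rcases Nat.eq_zero_or_pos Ω.ncard with h9 | h9
    · left
      exact (Set.ncard_eq_zero (Set.toFinite _)).1 h9
    · right
      have h10 : Set.ncard {w | (w ∈ N.map π ∧ w ≠ 1) ∧ w ∉ Ω} = 0 := by omega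
      rw [Set.ncard_eq_zero (Set.toFinite _)] at h10
      intro w hw hw1
      by_contra hc
      have h11 : w ∈ {w | (w ∈ N.map π ∧ w ≠ 1) ∧ w ∉ Ω} := ⟨⟨hw, hw1⟩, hc⟩
      rw [h10] at h11
      exact h11
  · rw [Set.disjoint_left]
    intro w hw h
    exact h.2 hw
  · rintro (h | h)
    · exact (hΩ 1 h).2 rfl
    · exact h.1.2 rfl

/-- **The normal 2-subgroups of `B` containing `z`.** -/
theorem P_cases [Finite B] [hN : N.Normal] (D : BD N z s φ)
    (hA : ∀ b, (∀ n ∈ N, b * n * b⁻¹ * n⁻¹ ∈ zpowers s) → b ∈ N) (K : Subgroup B) (hK : K.Normal) (hzK : z ∈ K)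
    (hKN : K ≤ N) : K = zpowers z ∨ K = zpowers s ∨ K = N := by
  have hS := normal_s D
  set π := QuotientGroup.mk' (zpowers s) with hπ
  have hker : π.ker = zpowers s := QuotientGroup.ker_mk' _
  have hV : Nat.card (N.map π) = 16 := card_V D
  have hnV := hN.map π (QuotientGroup.mk'_surjective _)
  have hnK := hK.map π (QuotientGroup.mk'_surjective _)
  have hzs : z ∈ zpowers s := by rw [← D.ss]; exact mul_mem (mem_zpowers s) (mem_zpowers s)
  have h1 := inv_sets D hA {w | w ∈ K.map π ∧ w ≠ 1} (by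
    rintro w ⟨h1, h2⟩
    exact ⟨map_mono hKN h1, h2⟩) (by
    rintro b w ⟨h1, h2⟩
    refine ⟨hnK.conj_mem w h1 _, ?_⟩
    intro h
    rw [mul_inv_eq_one] at h
    exact h2 (mul_left_cancel (h.trans (mul_one _).symm)))
  -- the part in `<s>`
  have hKs : s ∉ K → ∀ k ∈ K, k ∈ zpowers s → k = 1 ∨ k = z := by
    intro hs k hk hks
    rcases mem_zs D hks with h | h | h | h
    · exact Or.inl h
    · exact Or.inr h
    · exact absurd (h ▸ hk) hs
    · exfalso
      apply hs
      have h2 : s = k * z := by rw [h, mul_assoc, D.zz, mul_one]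
      rw [h2]
      exact mul_mem hk hzK
  rcases h1 with h1 | h1
  · -- `K ≤ <s>`
    have h2 : K ≤ zpowers s := by
      intro k hk
      by_contra hc
      have h3 : π k ∈ ({w | w ∈ K.map π ∧ w ≠ 1} : Set (B ⧸ zpowers s)) := by
        refine ⟨mem_map_of_mem π hk, ?_⟩
        intro h
        rw [← MonoidHom.mem_ker, hker] at h
        exact hc h
      rw [h1] at h3
      exact h3
    by_cases hs : s ∈ K
    · right; left
      exact le_antisymm h2 (zpowers_le.2 hs)
    · left
      refine le_antisymm ?_ (zpowers_le.2 hzK)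
      intro k hk
      rcases hKs hs k hk (h2 hk) with h | h
      · rw [h]; exact one_mem _
      · rw [h]; exact mem_zpowers z
  · -- `K` covers `N / <s>`
    right; right
    have h2 : ∀ w ∈ N.map π, w ∈ K.map π := by
      intro w hw
      by_cases h : w = 1
      · rw [h]; exact one_mem _
      · exact (h1 w hw h).1
    have h3 : ∀ n ∈ N, ∃ k ∈ K, ∃ c ∈ zpowers s, n = k * c := by
      intro n hn
      obtain ⟨k, hk, hkn⟩ := h2 _ (mem_map_of_mem π hn)
      refine ⟨k, hk, k⁻¹ * n, ?_, by group⟩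
      rw [← hker, MonoidHom.mem_ker, map_mul, map_inv, hkn, inv_mul_cancel]
    by_cases hs : s ∈ K
    · refine le_antisymm hKN ?_
      intro n hn
      obtain ⟨k, hk, c, hc, rfl⟩ := h3 n hn
      exact mul_mem hk ((zpowers_le.2 hs) hc)
    · exfalso
      have hKs' := hKs hs
      have h4 := inv_sets D hA {w | w ≠ 1 ∧ ∃ k ∈ K, π k = w ∧ k * k = 1} (by
        rintro w ⟨h1, k, hk, rfl, -⟩
        exact ⟨mem_map_of_mem π (hKN hk), h1⟩) (by
        rintro b w ⟨h1, k, hk, rfl, hkk⟩
        refine ⟨?_, b * k * b⁻¹, hK.conj_mem k hk b, by rw [map_mul, map_mul, map_inv], ?_⟩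
        · intro h
          rw [mul_inv_eq_one] at h
          exact h1 (mul_left_cancel (h.trans (mul_one _).symm))
        · have e : b * k * b⁻¹ * (b * k * b⁻¹) = b * (k * k) * b⁻¹ := by group
          rw [e, hkk, mul_one, mul_inv_cancel])
      rcases h4 with h4 | h4
      · -- all squares are `z`
        have hsq : ∀ k ∈ K, k ∉ zpowers s → k * k = z := by
          intro k hk hks
          rcases D.sq k (hKN hk) with h | h
          · exfalso
            have h5 : π k ∈ ({w | w ≠ 1 ∧ ∃ k ∈ K, π k = w ∧ k * k = 1} : Set (B ⧸ zpowers s)) := by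
              refine ⟨?_, k, hk, rfl, h⟩
              intro h6
              rw [← MonoidHom.mem_ker, hker] at h6
              exact hks h6
            rw [h4] at h5
            exact h5
          · exact h
        have hanti : ∀ k ∈ K, ∀ l ∈ K, k ∉ zpowers s → l ∉ zpowers s → k * l ∉ zpowers s → k * l = z * (l * k) := by
          intro k hk l hl h5 h6 h7
          rcases D.comm k (hKN hk) l (hKN hl) with h | h
          · exfalso
            have h8 := hsq _ (mul_mem hk hl) h7
            have h9 : k * l * (k * l) = (k * k) * (l * l) := by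
              calc k * l * (k * l) = k * (l * k) * l := by group
                _ = k * (k * l) * l := by rw [h]
                _ = (k * k) * (l * l) := by group
            rw [h9, hsq k hk h5, hsq l hl h6, D.zz] at h8
            exact D.z1 h8.symm
          · exact h
        have hne : ∀ F : Set (B ⧸ zpowers s), F.ncard < 16 → ∃ k ∈ K, π k ∉ F := by
          intro F hF
          have h5 : (N.map π : Set (B ⧸ zpowers s)).ncard = 16 := by
            rw [← Nat.card_coe_set_eq]; exact hV
          obtain ⟨w, hw, hwF⟩ := Set.exists_mem_notMem_of_ncard_lt_ncard (s := F)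
            (t := (N.map π : Set (B ⧸ zpowers s))) (by rw [h5]; exact hF) (Set.toFinite _)
          obtain ⟨k, hk, rfl⟩ := h2 w hw
          exact ⟨k, hk, hwF⟩
        have hπs : ∀ k : B, k ∈ zpowers s ↔ π k = 1 := by
          intro k
          rw [← MonoidHom.mem_ker, hker]
        have hπ2 : ∀ k ∈ K, π k * π k = 1 := by
          intro k hk
          rw [← map_mul, ← hπs]
          rcases D.sq k (hKN hk) with h | h
          · rw [h]; exact one_mem _
          · rw [h]; exact hzs
        obtain ⟨k, hk, hk1⟩ := hne {1} (by rw [Set.ncard_singleton]; norm_num)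
        obtain ⟨l, hl, hl1⟩ := hne {1, π k} (lt_of_le_of_lt (Set.ncard_insert_le _ _) (by
          rw [Set.ncard_singleton]; norm_num))
        obtain ⟨m, hm, hm1⟩ := hne {1, π k, π l, π k * π l} (lt_of_le_of_lt (Set.ncard_insert_le _ _)
          (lt_of_le_of_lt (Nat.add_le_add_right (Set.ncard_insert_le _ _) 1)
          (lt_of_le_of_lt (Nat.add_le_add_right (Nat.add_le_add_right (Set.ncard_insert_le _ _) 1) 1) (by
          rw [Set.ncard_singleton]; norm_num))))
        simp only [Set.mem_insert_iff, Set.mem_singleton_iff, not_or] at hk1 hl1 hm1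
        have hcom : ∀ a ∈ K, ∀ b ∈ K, π a * π b = π b * π a := by
          intro a ha b hb
          rw [← map_mul, ← map_mul]
          rcases D.comm a (hKN ha) b (hKN hb) with h | h
          · rw [h]
          · rw [h, map_mul, (hπs z).1 hzs, one_mul]
        have e1 : k * l = z * (l * k) := by
          apply hanti k hk l hl (by rw [hπs]; exact hk1) (by rw [hπs]; exact hl1.1)
          rw [hπs, map_mul]
          intro h
          apply hl1.2
          calc π l = (π k * π k) * π l := by rw [hπ2 k hk, one_mul]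
            _ = π k * (π k * π l) := by group
            _ = π k := by rw [h, mul_one]
        have e2 : k * m = z * (m * k) := by
          apply hanti k hk m hm (by rw [hπs]; exact hk1) (by rw [hπs]; exact hm1.1)
          rw [hπs, map_mul]
          intro h
          apply hm1.2.1
          calc π m = (π k * π k) * π m := by rw [hπ2 k hk, one_mul]
            _ = π k * (π k * π m) := by group
            _ = π k := by rw [h, mul_one]
        have e3 : k * (l * m) = z * ((l * m) * k) := by
          apply hanti k hk (l * m) (mul_mem hl hm) (by rw [hπs]; exact hk1)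
          · rw [hπs, map_mul]
            intro h
            apply hm1.2.2.1
            calc π m = (π l * π l) * π m := by rw [hπ2 l hl, one_mul]
              _ = π l * (π l * π m) := by group
              _ = π l := by rw [h, mul_one]
          · rw [hπs, map_mul, map_mul]
            intro h
            apply hm1.2.2.2
            calc π m = (π l * π l) * π m := by rw [hπ2 l hl, one_mul]
              _ = π l * ((π k * π k) * (π l * π m)) := by rw [hπ2 k hk, one_mul]; group
              _ = π l * π k * (π k * (π l * π m)) := by group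
              _ = π k * π l := by rw [h, mul_one, hcom l hl k hk]
        have e4 : k * (l * m) = (l * m) * k := by
          calc k * (l * m) = (k * l) * m := by group
            _ = z * (l * k) * m := by rw [e1]
            _ = z * l * (k * m) := by group
            _ = z * l * (z * (m * k)) := by rw [e2]
            _ = z * (l * z) * (m * k) := by group
            _ = z * (z * l) * (m * k) := by rw [D.zc l]
            _ = (z * z) * (l * m * k) := by group
            _ = (l * m) * k := by rw [D.zz, one_mul]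
        rw [e4] at e3
        exact D.z1 (mul_eq_right.1 e3.symm)
      · -- all squares are trivial
        have hsq : ∀ k ∈ K, k * k = 1 := by
          intro k hk
          by_cases hks : k ∈ zpowers s
          · rcases hKs' k hk hks with h | h
            · rw [h, one_mul]
            · rw [h, D.zz]
          · have h5 := h4 (π k) (mem_map_of_mem π (hKN hk)) (by
              intro h; rw [← MonoidHom.mem_ker, hker] at h; exact hks h)
            obtain ⟨-, l, hl, hlk, hll⟩ := h5
            have h6 : l⁻¹ * k ∈ zpowers s := by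
              rw [← hker, MonoidHom.mem_ker, map_mul, map_inv, hlk, inv_mul_cancel]
            rcases hKs' _ (mul_mem (inv_mem hl) hk) h6 with h | h
            · rw [inv_mul_eq_one] at h
              rw [← h]; exact hll
            · rw [inv_mul_eq_iff_eq_mul] at h
              rw [h]
              calc l * z * (l * z) = l * (z * l) * z := by group
                _ = l * (l * z) * z := by rw [D.zc l]
                _ = (l * l) * (z * z) := by group
                _ = 1 := by rw [hll, D.zz, one_mul]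
        have hcomm : ∀ k ∈ K, ∀ l ∈ K, k * l = l * k := by
          intro k hk l hl
          have h5 := hsq _ (mul_mem hk hl)
          have h6 := hsq k hk
          have h7 := hsq l hl
          calc k * l = (k * l) * (k * l) * (l⁻¹ * k⁻¹) := by group
            _ = l⁻¹ * k⁻¹ := by rw [h5, one_mul]
            _ = (l * l) * l⁻¹ * (k⁻¹ * (k * k)) := by rw [h6, h7, mul_one, one_mul]
            _ = l * k := by group
        have h8 : N ≤ zpowers s := by
          intro n hn
          apply D.cen n hn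
          intro m hm
          obtain ⟨k, hk, c, hc, rfl⟩ := h3 n hn
          obtain ⟨l, hl, d, hd, rfl⟩ := h3 m hm
          have hc1 : ∀ c ∈ zpowers s, ∀ n ∈ N, n * c = c * n := by
            intro c hc n hn
            obtain ⟨i, rfl⟩ := mem_zpowers_iff.1 hc
            exact ((show Commute n s from D.scen n hn).zpow_right i).eq
          have h9 := hc1 c hc l (hKN hl)
          have h10 := hc1 d hd k (hKN hk)
          have h11 := hc1 d hd c ((zpowers_le.2 D.sN) hc)
          have h12 := hcomm k hk l hl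
          calc k * c * (l * d) = k * (c * l) * d := by group
            _ = k * (l * c) * d := by rw [h9]
            _ = (k * l) * (c * d) := by group
            _ = (l * k) * (d * c) := by rw [h12, h11]
            _ = l * (k * d) * c := by group
            _ = l * (d * k) * c := by rw [h10]
            _ = l * d * (k * c) := by group
        have h9 := Subgroup.card_le_of_le h8
        rw [Nat.card_zpowers, ord_s D, D.card] at h9
        omega

end cases

section two

variable {G : Type u} [Group G] [Finite G] {B : Type u} [Group B]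

/-- **The Sylow 2-subgroup of `H = N_G(P)` is one of `G`, of order `2 ^ 10`.** -/
theorem two_of {P : Subgroup G} {f : ↥(normalizer (P : Set G)) →* B}
    (hf : Function.Surjective f) (hcop : (Nat.card f.ker).Coprime 2) {N : Subgroup B} {zb sb : B}
    {φ : B →* Perm (Fin 6)} (D : BD N zb sb φ)
    (hchar : ∀ (T : Sylow 2 B) (α : ↥T ≃* ↥T) (t : ↥T), (t : B) ∈ N → (α t : B) ∈ N)
    {M : Subgroup ↥(normalizer (P : Set G))} (L : Lift f N M) {s : ↥(normalizer (P : Set G))} (hs : s ∈ M) (hfs : f s = sb)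
    (hP : P.subgroupOf (normalizer (P : Set G)) = zpowers (s * s) ∨
      P.subgroupOf (normalizer (P : Set G)) = zpowers s ∨ P.subgroupOf (normalizer (P : Set G)) = M) :
    (Nat.card G).factorization 2 = 10 := by
  classical
  have h2p : Fact (Nat.Prime 2) := ⟨Nat.prime_two⟩
  have hBf : Finite B := Finite.of_surjective f hf
  obtain ⟨T0, hMT⟩ := L.two.exists_le_sylow
  set Tb : Sylow 2 B := T0.mapSurjective hf with hTb
  have hTbm : ∀ x ∈ T0, f x ∈ Tb := by
    intro x hx
    change f x ∈ (Tb : Subgroup B)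
    rw [hTb, Sylow.coe_mapSurjective]
    exact mem_map_of_mem f hx
  have hinj : ∀ x ∈ T0, f x = 1 → x = 1 := by
    intro x hx h
    refine inj_two hcop ?_ h
    obtain ⟨n, hn⟩ := T0.isPGroup' ⟨x, hx⟩
    exact ⟨n, congrArg Subtype.val hn⟩
  have hinj' : ∀ x ∈ T0, ∀ y ∈ T0, f x = f y → x = y := by
    intro x hx y hy h
    have h1 := hinj (x * y⁻¹) (mul_mem hx (inv_mem hy)) (by rw [map_mul, map_inv, h, mul_inv_cancel])
    exact mul_inv_eq_one.1 h1
  have hfM : ∀ x ∈ M, f x ∈ N := by
    intro x hx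
    rw [← L.map]
    exact mem_map_of_mem f hx
  have hex : ∀ n ∈ N, ∃ x ∈ M, f x = n := by
    intro n hn
    rw [← L.map] at hn
    obtain ⟨x, hx, hxn⟩ := hn
    exact ⟨x, hx, hxn⟩
  -- `T0 ≃* Tb`
  let e0 : ↥(T0 : Subgroup ↥(normalizer (P : Set G))) →* ↥(Tb : Subgroup B) :=
    (f.comp (T0 : Subgroup _).subtype).codRestrict (Tb : Subgroup B) (fun x => hTbm x x.2)
  have he0 : Function.Bijective e0 := by
    constructor
    · intro x y hxy
      exact Subtype.ext (hinj' x x.2 y y.2 (congrArg Subtype.val hxy))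
    · rintro ⟨t, ht⟩
      have ht' : t ∈ (T0 : Subgroup _).map f := ht
      obtain ⟨x, hx, hxt⟩ := ht'
      exact ⟨⟨x, hx⟩, Subtype.ext hxt⟩
  let e : ↥(T0 : Subgroup ↥(normalizer (P : Set G))) ≃* ↥(Tb : Subgroup B) := MulEquiv.ofBijective e0 he0
  set T1 : Subgroup G := (T0 : Subgroup ↥(normalizer (P : Set G))).map (normalizer (P : Set G)).subtype with hT1
  let e1 : ↥(T0 : Subgroup ↥(normalizer (P : Set G))) ≃* ↥T1 :=
    (T0 : Subgroup ↥(normalizer (P : Set G))).equivMapOfInjective _ (normalizer (P : Set G)).subtype_injective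
  -- conjugation by an element of `N_G(T1)` preserves `M`
  have hM : ∀ g ∈ normalizer (T1 : Set G), ∀ m ∈ M, ∃ m' ∈ M, (m' : G) = g * m * g⁻¹ := by
    intro g hg m hm
    let c : ↥T1 ≃* ↥T1 := T1.normalizerMonoidHom ⟨g, hg⟩
    let α : ↥(Tb : Subgroup B) ≃* ↥(Tb : Subgroup B) := (e.symm.trans (e1.trans c)).trans (e1.symm.trans e)
    have h1 := hchar Tb α (e ⟨m, hMT hm⟩) (hfM m hm)
    obtain ⟨x, hx, hxm⟩ := hex _ h1
    set m' : ↥(T0 : Subgroup ↥(normalizer (P : Set G))) := e1.symm (c (e1 ⟨m, hMT hm⟩)) with hm'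
    have h2 : α (e ⟨m, hMT hm⟩) = e m' := by
      change e (e1.symm (c (e1 (e.symm (e ⟨m, hMT hm⟩))))) = _
      rw [MulEquiv.symm_apply_apply]
    rw [h2] at hxm
    have h3 : x = m' := hinj' x (hMT hx) m' m'.2 hxm
    refine ⟨x, hx, ?_⟩
    rw [h3]
    have h4 : e1 m' = c (e1 ⟨m, hMT hm⟩) := by rw [hm', MulEquiv.apply_symm_apply]
    exact congrArg Subtype.val h4
  -- `N_G(T1) ≤ N_G(P)`
  have hsub : ∀ g ∈ normalizer (T1 : Set G), ∀ p ∈ P, g * p * g⁻¹ ∈ P := by
    intro g hg p hp
    obtain ⟨s', hs', hss⟩ := hM g hg s hs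
    have hs'z : s' ∈ zpowers s := by
      have h1 : f s' ∈ zpowers sb := by
        apply D.cen _ (hfM s' hs')
        intro n hn
        obtain ⟨y, hy, rfl⟩ := hex n hn
        obtain ⟨y', hy', hyy⟩ := hM g⁻¹ (inv_mem hg) y hy
        have h2 : y' * s = s * y' := hinj' _ (hMT (mul_mem hy' hs)) _ (hMT (mul_mem hs hy')) (by
          rw [map_mul, map_mul, hfs]; exact D.scen _ (hfM y' hy'))
        have h3 : (y' : G) * s = s * y' := congrArg Subtype.val h2
        rw [hyy] at h3
        have h4 : s' * y = y * s' := by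
          apply Subtype.ext
          change (s' : G) * y = y * s'
          rw [hss]
          calc g * (s : G) * g⁻¹ * y = g * ((s : G) * (g⁻¹ * y * g⁻¹⁻¹)) * g⁻¹ := by group
            _ = g * ((g⁻¹ * y * g⁻¹⁻¹) * s) * g⁻¹ := by rw [h3]
            _ = y * (g * s * g⁻¹) := by group
        rw [← map_mul, h4, map_mul]
      obtain ⟨i, hi⟩ := mem_zpowers_iff.1 h1
      refine mem_zpowers_iff.2 ⟨i, ?_⟩
      exact hinj' _ (hMT (zpow_mem hs i)) _ (hMT hs') (by rw [map_zpow, hfs, hi])
    have hpP : ∀ q : ↥(normalizer (P : Set G)), q ∈ P.subgroupOf (normalizer (P : Set G)) ↔ (q : G) ∈ P := fun q => Iff.rfl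
    have hpH : p ∈ normalizer (P : Set G) := le_normalizer hp
    have hp' : (⟨p, hpH⟩ : ↥(normalizer (P : Set G))) ∈ P.subgroupOf (normalizer (P : Set G)) := hp
    rcases hP with h | h | h
    · -- `P = <z>`
      have h1 : s' * s' ∈ zpowers (s * s) := by
        obtain ⟨i, rfl⟩ := mem_zpowers_iff.1 hs'z
        refine mem_zpowers_iff.2 ⟨i, ?_⟩
        rw [← zpow_add, ← pow_two, ← zpow_natCast, ← zpow_mul]
        congr 1
        push_cast
        ring
      rw [h] at hp'
      obtain ⟨i, hi⟩ := mem_zpowers_iff.1 hp'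
      have h2 : (s' * s') ^ i ∈ P.subgroupOf (normalizer (P : Set G)) := by
        rw [h]; exact zpow_mem h1 i
      rw [hpP] at h2
      have h3 : (((s' * s') ^ i : ↥(normalizer (P : Set G))) : G) = g * p * g⁻¹ := by
        have h4 : p = ((s : G) * s) ^ i := by
          have h6 : (((s * s) ^ i : ↥(normalizer (P : Set G))) : G) = p := congrArg Subtype.val hi
          exact h6.symm
        have h5 : (((s' * s') ^ i : ↥(normalizer (P : Set G))) : G) = ((s' : G) * s') ^ i := rfl
        rw [h5, hss, h4, ← conj_zpow]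
        congr 1
        group
      rwa [h3] at h2
    · -- `P = <s>`
      rw [h] at hp'
      obtain ⟨i, hi⟩ := mem_zpowers_iff.1 hp'
      have h2 : s' ^ i ∈ P.subgroupOf (normalizer (P : Set G)) := by
        rw [h]; exact zpow_mem hs'z i
      rw [hpP] at h2
      have h3 : ((s' ^ i : ↥(normalizer (P : Set G))) : G) = g * p * g⁻¹ := by
        have h4 : p = (s : G) ^ i := by
          have h6 : ((s ^ i : ↥(normalizer (P : Set G))) : G) = p := congrArg Subtype.val hi
          exact h6.symm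
        have h5 : ((s' ^ i : ↥(normalizer (P : Set G))) : G) = (s' : G) ^ i := rfl
        rw [h5, hss, h4, conj_zpow]
      rwa [h3] at h2
    · -- `P = N0`
      rw [h] at hp'
      obtain ⟨x, hx, hxp⟩ := hM g hg _ hp'
      rw [← h, hpP, hxp] at hx
      exact hx
  have hNT : normalizer (T1 : Set G) ≤ normalizer (P : Set G) := by
    intro g hg
    rw [mem_normalizer_iff]
    intro p
    constructor
    · exact hsub g hg p
    · intro h
      have h1 := hsub g⁻¹ (inv_mem hg) _ h
      have e : g⁻¹ * (g * p * g⁻¹) * g⁻¹⁻¹ = p := by group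
      rwa [e] at h1
  -- `T1` is Sylow
  obtain ⟨S, hS⟩ := Cfsg.Agent.EvenType.StrongP.isSylow_of_normalizer (p := 2) (Q := T1) (T0.isPGroup'.map _) (by
    intro R hR hTR hRN
    have hRH : R ≤ normalizer (P : Set G) := hRN.trans hNT
    have h1 : IsPGroup 2 ↥(R.subgroupOf (normalizer (P : Set G))) := hR.of_equiv (subgroupOfEquivOfLe hRH).symm
    have h2 : (T0 : Subgroup ↥(normalizer (P : Set G))) ≤ R.subgroupOf (normalizer (P : Set G)) := by
      intro x hx
      exact hTR (mem_map_of_mem _ hx)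
    have h3 := T0.is_maximal' h1 h2
    refine le_antisymm ?_ hTR
    intro r hr
    have h4 : (⟨r, hRH hr⟩ : ↥(normalizer (P : Set G))) ∈ R.subgroupOf (normalizer (P : Set G)) := hr
    rw [h3] at h4
    exact ⟨_, h4, rfl⟩)
  have h1 := S.card_eq_multiplicity
  have h3 : Nat.card (S : Subgroup G) = Nat.card (Tb : Subgroup B) := by
    rw [hS]
    exact Nat.card_congr (e1.symm.trans e).toEquiv
  have h4 := Tb.card_eq_multiplicity
  have h5 : Nat.card B = 2 ^ 10 * 45 := by
    have h6 : N.index = 720 := by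
      have h7 : φ.ker = N := by
        ext b
        rw [MonoidHom.mem_ker, D.ker]
      rw [← h7, index_ker, MonoidHom.range_eq_top.2 D.surj, card_top, Nat.card_perm, Nat.card_fin]
      rfl
    rw [← N.card_mul_index, D.card, h6]
    norm_num
  have h6 : (Nat.card B).factorization 2 = 10 := by
    rw [h5, Nat.factorization_mul (by norm_num) (by norm_num), Nat.Prime.factorization_pow Nat.prime_two]
    have h45 : Nat.factorization 45 2 = 0 := Nat.factorization_eq_zero_of_not_dvd (by norm_num)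
    simp [h45]
  rw [h6] at h4
  have h7 : (2 : ℕ) ^ (Nat.card G).factorization 2 = 2 ^ 10 := by
    rw [← h1, ← h4]
    exact h3
  exact Nat.pow_right_injective (le_refl 2) h7

/-- **The configuration of case A in `G`**, from a surjection `f : N_G(P) → B` with an odd kernel -/
theorem exists_CA_of (hodd : ∀ (K : Type u) [Group K] [Finite K], Odd (Nat.card K) → Group.IsSolvable K)
    {P : Subgroup G} (hP2 : IsPGroup 2 P) (hP1 : P ≠ ⊥) {f : ↥(normalizer (P : Set G)) →* B}
    (hf : Function.Surjective f) (hk : Odd (Nat.card f.ker)) {N : Subgroup B} [hN : N.Normal] {zb sb : B}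
    {φ : B →* Perm (Fin 6)} (D : BD N zb sb φ)
    (hA : ∀ b, (∀ n ∈ N, b * n * b⁻¹ * n⁻¹ ∈ zpowers sb) → b ∈ N)
    (hchar : ∀ (T : Sylow 2 B) (α : ↥T ≃* ↥T) (t : ↥T), (t : B) ∈ N → (α t : B) ∈ N) :
    ∃ (N0 : Subgroup G) (z s : G), H314.Co3.CA (normalizer (P : Set G)) N0 z s (φ.comp f) := by
  classical
  have : Fact (Nat.Prime 2) := ⟨Nat.prime_two⟩
  have hBf : Finite B := Finite.of_surjective f hf
  have hcop : (Nat.card f.ker).Coprime 2 := (Nat.coprime_two_right).2 hk
  have hPH : P ≤ (normalizer (P : Set G)) := le_normalizer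
  set P' : Subgroup (normalizer (P : Set G)) := P.subgroupOf (normalizer (P : Set G)) with hP'
  have hP'2 : IsPGroup 2 P' := hP2.of_equiv (subgroupOfEquivOfLe hPH).symm
  have hP'n : P'.Normal := inferInstance
  have hPfn : (P'.map f).Normal := hP'n.map f hf
  -- the image of `P` is in `N`
  have hPN : P'.map f ≤ N := by
    intro b hb
    rw [← D.ker]
    refine two_perm_six ((P'.map f).map φ) ((hP'2.map f).map φ) ?_ (φ b) (mem_map_of_mem φ hb)
    rintro a - _ ⟨d, hd, rfl⟩
    obtain ⟨c, rfl⟩ := D.surj a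
    exact ⟨c * d * c⁻¹, hPfn.conj_mem d hd c, by rw [map_mul, map_mul, map_inv]⟩
  obtain ⟨M, hPM, L⟩ := exists_lift hf hcop D.two hP'2 hP'n hPN
  have hinj : ∀ x ∈ M, f x = 1 → x = 1 := by
    intro x hx h
    refine inj_two hcop ?_ h
    obtain ⟨n, hn⟩ := L.two ⟨x, hx⟩
    exact ⟨n, congrArg Subtype.val hn⟩
  have hinj' : ∀ x ∈ M, ∀ y ∈ M, f x = f y → x = y := by
    intro x hx y hy h
    have h1 := hinj (x * y⁻¹) (mul_mem hx (inv_mem hy)) (by rw [map_mul, map_inv, h, mul_inv_cancel])
    exact mul_inv_eq_one.1 h1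
  have hfM : ∀ x ∈ M, f x ∈ N := by
    intro x hx
    rw [← L.map]
    exact mem_map_of_mem f hx
  have hex : ∀ n ∈ N, ∃ x ∈ M, f x = n := by
    intro n hn
    rw [← L.map] at hn
    obtain ⟨x, hx, hxn⟩ := hn
    exact ⟨x, hx, hxn⟩
  -- `zb` is in the image of `P`
  have hzP : ∃ p ∈ P', f p = zb := by
    have h1 : P' ≠ ⊥ := by
      intro h
      apply hP1
      rw [eq_bot_iff]
      intro p hp
      have h2 : (⟨p, hPH hp⟩ : (normalizer (P : Set G))) ∈ P' := hp
      rw [h, mem_bot] at h2
      rw [mem_bot]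
      exact congrArg Subtype.val h2
    obtain ⟨p, hp, hp1⟩ := (Subgroup.ne_bot_iff_exists_ne_one.1 h1 : ∃ a : P', a ≠ 1).elim
      (fun a ha => (⟨a, a.2, fun h => ha (Subtype.ext h)⟩ : ∃ p ∈ P', p ≠ 1))
    have hfp1 : f p ≠ 1 := fun h => hp1 (hinj p (hPM hp) h)
    have hfp : f p ∈ P'.map f := mem_map_of_mem f hp
    have h3 : zb ∈ P'.map f := by
      by_cases hc : ∀ m ∈ N, f p * m = m * f p
      · -- `f p` is a power of `sb`
        rcases mem_zs D (D.cen _ (hPN hfp) hc) with h4 | h4 | h4 | h4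
        · exact absurd h4 hfp1
        · rw [← h4]; exact hfp
        · rw [← D.ss, ← h4]; exact mul_mem hfp hfp
        · have h5 : f p * f p = zb := by
            rw [h4]
            calc sb * zb * (sb * zb) = sb * (zb * sb) * zb := by group
              _ = sb * (sb * zb) * zb := by rw [zs D]
              _ = (sb * sb) * (zb * zb) := by group
              _ = zb := by rw [D.ss, D.zz, mul_one]
          rw [← h5]; exact mul_mem hfp hfp
      · push Not at hc
        obtain ⟨m, hm, hc⟩ := hc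
        rcases D.comm _ (hPN hfp) m hm with h5 | h5
        · exact absurd h5 hc
        · have h6 : f p * (m * (f p)⁻¹ * m⁻¹) = zb := by
            calc f p * (m * (f p)⁻¹ * m⁻¹) = (f p * m) * (f p)⁻¹ * m⁻¹ := by group
              _ = zb * (m * f p) * (f p)⁻¹ * m⁻¹ := by rw [h5]
              _ = zb := by group
          rw [← h6]
          exact mul_mem hfp (hPfn.conj_mem _ (inv_mem hfp) m)
    obtain ⟨q, hq, hqz⟩ := h3
    exact ⟨q, hq, hqz⟩
  obtain ⟨z, hz, hfz⟩ := hzP
  obtain ⟨s, hs, hfs⟩ := hex sb D.sN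
  have hzM := hPM hz
  have hss : s * s = z := hinj' _ (mul_mem hs hs) _ hzM (by rw [map_mul, hfs, hfz, D.ss])
  set N0 : Subgroup G := M.map (normalizer (P : Set G)).subtype with hN0
  have hMN0 : ∀ x : (normalizer (P : Set G)), (x : G) ∈ N0 ↔ x ∈ M := by
    intro x
    constructor
    · rintro ⟨y, hy, hyx⟩
      have : y = x := Subtype.ext hyx
      rwa [← this]
    · intro hx
      exact ⟨x, hx, rfl⟩
  have hN0' : ∀ g ∈ N0, ∃ x ∈ M, (x : G) = g := by
    rintro g ⟨y, hy, hyx⟩
    exact ⟨y, hy, hyx⟩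
  have hnorm : ∀ b : B, ∃ h : (normalizer (P : Set G)), (∀ x ∈ M, h * x * h⁻¹ ∈ M) ∧ (∀ x ∈ M, h⁻¹ * x * h ∈ M) ∧ f h = b := by
    intro b
    have h1 : b ∈ (normalizer (M : Set (normalizer (P : Set G)))).map f := by rw [L.norm]; exact mem_top _
    obtain ⟨h, hh, hb⟩ := h1
    refine ⟨h, ?_, ?_, hb⟩
    · intro x hx
      exact (mem_normalizer_iff.1 hh x).1 hx
    · intro x hx
      have h2 := (mem_normalizer_iff.1 (inv_mem hh) x).1 hx
      rwa [inv_inv] at h2
  -- membership through the image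
  have hzp : ∀ x ∈ M, f x ∈ zpowers sb → x ∈ zpowers s := by
    intro x hx h1
    obtain ⟨i, hi⟩ := mem_zpowers_iff.1 h1
    exact mem_zpowers_iff.2 ⟨i, hinj' _ (zpow_mem hs i) _ hx (by rw [map_zpow, hfs, hi])⟩
  -- the possibilities for `P`
  have hPcase : P' = zpowers (s * s) ∨ P' = zpowers s ∨ P' = M := by
    have hzK : zb ∈ P'.map f := by rw [← hfz]; exact mem_map_of_mem f hz
    have hback : ∀ x ∈ M, f x ∈ P'.map f → x ∈ P' := by
      rintro x hx ⟨p, hp, hpx⟩
      have : p = x := hinj' _ (hPM hp) _ hx hpx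
      rwa [← this]
    rcases P_cases D hA (P'.map f) hPfn hzK hPN with h | h | h
    · left
      refine le_antisymm ?_ ?_
      · intro p hp
        have h1 : f p ∈ zpowers zb := by rw [← h]; exact mem_map_of_mem f hp
        obtain ⟨i, hi⟩ := mem_zpowers_iff.1 h1
        refine mem_zpowers_iff.2 ⟨i, hinj' _ (zpow_mem (mul_mem hs hs) i) _ (hPM hp) ?_⟩
        rw [map_zpow, map_mul, hfs, D.ss, hi]
      · rw [zpowers_le, hss]; exact hz
    · right; left
      refine le_antisymm ?_ ?_
      · intro p hp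
        apply hzp p (hPM hp)
        rw [← h]; exact mem_map_of_mem f hp
      · rw [zpowers_le]
        apply hback s hs
        rw [h, hfs]; exact mem_zpowers sb
    · right; right
      refine le_antisymm hPM ?_
      intro x hx
      apply hback x hx
      rw [h]; exact hfM x hx
  refine ⟨N0, (z : G), (s : G),
    { NH := map_subtype_le _
      N_two := L.two.map _
      card := ?_
      sN := (hMN0 s).2 hs
      s_sq := congrArg Subtype.val hss
      z_sq := ?_
      z_ne := ?_
      s_cen := ?_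
      sq := ?_
      comm := ?_
      cen := ?_
      z_cen := ?_
      surj := D.surj.comp hf
      psi_N := ?_
      ker_card := ?_
      ker_solv := ?_
      frat := ?_
      inv_s := ?_
      faithful := ?_
      two := two_of hf hcop D hchar L hs hfs hPcase }⟩
  · have h1 : Nat.card N0 = Nat.card M :=
      (Nat.card_congr (M.equivMapOfInjective (normalizer (P : Set G)).subtype (normalizer (P : Set G)).subtype_injective).toEquiv).symm
    have h2 : Nat.card M = Nat.card N := by
      let g : M →* N := (f.comp M.subtype).codRestrict N (fun x => hfM x x.2)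
      refine Nat.card_congr (Equiv.ofBijective g ⟨?_, ?_⟩)
      · intro x y hxy
        exact Subtype.ext (hinj' x x.2 y y.2 (congrArg Subtype.val hxy))
      · rintro ⟨n, hn⟩
        obtain ⟨x, hx, hxn⟩ := hex n hn
        exact ⟨⟨x, hx⟩, Subtype.ext hxn⟩
    rw [h1, h2, D.card]
  · have h1 : z * z = 1 := hinj _ (mul_mem hzM hzM) (by rw [map_mul, hfz, D.zz])
    exact congrArg Subtype.val h1
  · intro h
    have h1 : z = 1 := Subtype.ext h
    apply D.z1
    rw [← hfz, h1, map_one]
  · intro g hg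
    obtain ⟨x, hx, rfl⟩ := hN0' g hg
    have h1 : x * s = s * x :=
      hinj' _ (mul_mem hx hs) _ (mul_mem hs hx) (by rw [map_mul, map_mul, hfs]; exact D.scen _ (hfM x hx))
    exact congrArg Subtype.val h1
  · intro g hg
    obtain ⟨x, hx, rfl⟩ := hN0' g hg
    rcases D.sq _ (hfM x hx) with h | h
    · left
      have h1 : x * x = 1 := hinj _ (mul_mem hx hx) (by rw [map_mul, h])
      exact congrArg Subtype.val h1
    · right
      have h1 : x * x = z := hinj' _ (mul_mem hx hx) _ hzM (by rw [map_mul, h, hfz])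
      exact congrArg Subtype.val h1
  · intro g hg g' hg'
    obtain ⟨x, hx, rfl⟩ := hN0' g hg
    obtain ⟨y, hy, rfl⟩ := hN0' g' hg'
    rcases D.comm _ (hfM x hx) _ (hfM y hy) with h | h
    · left
      have h1 : x * y = y * x := hinj' _ (mul_mem hx hy) _ (mul_mem hy hx) (by rw [map_mul, map_mul, h])
      exact congrArg Subtype.val h1
    · right
      have h1 : x * y = z * (y * x) :=
        hinj' _ (mul_mem hx hy) _ (mul_mem hzM (mul_mem hy hx)) (by rw [map_mul, map_mul, map_mul, h, hfz])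
      exact congrArg Subtype.val h1
  · intro g hg h
    obtain ⟨x, hx, rfl⟩ := hN0' g hg
    have h1 : x ∈ zpowers s := by
      apply hzp x hx
      apply D.cen _ (hfM x hx)
      intro m hm
      obtain ⟨y, hy, rfl⟩ := hex m hm
      have h2 := h y ((hMN0 y).2 hy)
      have h3 : x * y = y * x := Subtype.ext h2
      rw [← map_mul, ← map_mul, h3]
    obtain ⟨i, hi⟩ := mem_zpowers_iff.1 h1
    refine mem_zpowers_iff.2 ⟨i, ?_⟩
    rw [← hi]
    rfl
  · intro h hh
    have h1 : (⟨h, hh⟩ : (normalizer (P : Set G))) * z * (⟨h, hh⟩ : (normalizer (P : Set G)))⁻¹ ∈ P' := hP'n.conj_mem z hz _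
    have h2 : (⟨h, hh⟩ : (normalizer (P : Set G))) * z * (⟨h, hh⟩ : (normalizer (P : Set G)))⁻¹ = z :=
      hinj' _ (hPM h1) _ hzM (by rw [map_mul, map_mul, map_inv, hfz, D.zc, mul_inv_cancel_right])
    rw [mul_inv_eq_iff_eq_mul] at h2
    exact congrArg Subtype.val h2
  · intro n hn
    have h1 : (⟨n, map_subtype_le _ hn⟩ : (normalizer (P : Set G))) ∈ M := (hMN0 ⟨n, map_subtype_le _ hn⟩).1 hn
    exact (D.ker _).2 (hfM _ h1)
  · refine ⟨Nat.card f.ker, hk, ?_⟩
    have h1 : (φ.comp f).ker = N.comap f := by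
      ext x
      rw [MonoidHom.mem_ker, MonoidHom.comp_apply, D.ker, mem_comap]
    rw [h1]
    have h2 : Nat.card (N.comap f) * (N.comap f).index = Nat.card (normalizer (P : Set G)) := card_mul_index _
    have h3 : Nat.card N * N.index = Nat.card B := card_mul_index _
    have h4 : (N.comap f).index = N.index := index_comap_of_surjective N hf
    have h5 : Nat.card B * Nat.card f.ker = Nat.card (normalizer (P : Set G)) := by
      rw [← card_mul_index f.ker, index_ker, MonoidHom.range_eq_top.2 hf, card_top, mul_comm]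
    have h6 : N.index ≠ 0 := index_ne_zero_of_finite
    rw [h4] at h2
    rw [← h5, ← h3, D.card] at h2
    apply mul_right_cancel₀ h6
    rw [h2]
    ring
  · have h0 : Group.IsSolvable f.ker := hodd _ hk
    have h1 : (φ.comp f).ker = N.comap f := by
      ext x
      rw [MonoidHom.mem_ker, MonoidHom.comp_apply, D.ker, mem_comap]
    rw [h1]
    have h2 : Group.IsSolvable N := by
      have := D.two.isNilpotent
      infer_instance
    let g : N.comap f →* N := f.subgroupComap N
    let i : f.ker →* N.comap f := Subgroup.inclusion (fun x hx => by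
      rw [mem_comap, MonoidHom.mem_ker.1 hx]; exact one_mem _)
    refine Group.isSolvable_of_ker_le_range i g ?_
    rintro ⟨x, hx⟩ hxk
    have h3 : f x = 1 := congrArg Subtype.val hxk
    exact ⟨⟨x, h3⟩, rfl⟩
  · intro π
    obtain ⟨c, hcφ⟩ := D.surj π
    obtain ⟨h, hh, hh', hhc⟩ := hnorm c
    refine ⟨h, ?_, by rw [MonoidHom.comp_apply, hhc, hcφ]⟩
    rw [mem_normalizer_iff]
    intro g
    constructor
    · intro hg
      obtain ⟨x, hx, rfl⟩ := hN0' g hg
      exact (hMN0 (h * x * h⁻¹)).2 (hh x hx)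
    · intro hg
      obtain ⟨x, hx, hxg⟩ := hN0' _ hg
      have h1 : g = ((h⁻¹ * x * h : (normalizer (P : Set G))) : G) := by
        change g = (h : G)⁻¹ * x * h
        rw [hxg]; group
      rw [h1]
      exact (hMN0 _).2 (hh' x hx)
  · intro h hh
    have h1 : Perm.sign ((φ.comp f) h) = 1 ↔ f h * sb = sb * f h := inv_s D (f h)
    rw [h1]
    constructor
    · intro h2
      have h3 : (h : G) * s * (h : G)⁻¹ ∈ N0 := (mem_normalizer_iff.1 hh _).1 ((hMN0 s).2 hs)
      have h4 : h * s * h⁻¹ ∈ M := (hMN0 (h * s * h⁻¹)).1 h3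
      have h5 : h * s * h⁻¹ = s :=
        hinj' _ h4 _ hs (by rw [map_mul, map_mul, map_inv, hfs, h2, mul_inv_cancel_right])
      rw [mul_inv_eq_iff_eq_mul] at h5
      exact congrArg Subtype.val h5
    · intro h2
      have h3 : h * s = s * h := Subtype.ext h2
      rw [← hfs, ← map_mul, ← map_mul, h3]
  · intro h hh hc
    refine (D.ker _).2 (hA _ ?_)
    intro n hn
    obtain ⟨x, hx, rfl⟩ := hex n hn
    have h1 := hc x ((hMN0 x).2 hx)
    obtain ⟨i, hi⟩ := mem_zpowers_iff.1 h1
    have h2 : h * x * h⁻¹ * x⁻¹ = s ^ i := by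
      apply Subtype.ext
      change (h : G) * x * (h : G)⁻¹ * (x : G)⁻¹ = (s : G) ^ i
      exact hi.symm
    have h3 : f h * f x * (f h)⁻¹ * (f x)⁻¹ = sb ^ i := by
      rw [← map_inv, ← map_inv, ← map_mul, ← map_mul, ← map_mul, h2, map_zpow, hfs]
    rw [h3]
    exact zpow_mem (mem_zpowers sb) i

end two

/-- **Reduction to case A.** In terms of the hypotheses of S1920 (see `H738.C3.exists_CB` for the data `D`). -/
theorem exists_CA (hodd : ∀ (K : Type u) [Group K] [Finite K], Odd (Nat.card K) → Group.IsSolvable K)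
    {G : Type u} [Group G] [Finite G] (H : Subgroup G) (hH : Cfsg.IsTwoLocal H)
    (N : Subgroup (↥H ⧸ Cfsg.oddCore ↥H)) [hN : N.Normal] {z s : ↥H ⧸ Cfsg.oddCore ↥H}
    {φ : ↥H ⧸ Cfsg.oddCore ↥H →* Perm (Fin 6)} (D : BD N z s φ)
    (hA : ∀ b, (∀ n ∈ N, b * n * b⁻¹ * n⁻¹ ∈ zpowers z) → b ∈ N)
    (hchar : ∀ (T : Sylow 2 (↥H ⧸ Cfsg.oddCore ↥H)) (α : ↥T ≃* ↥T) (t : ↥T),
      (t : ↥H ⧸ Cfsg.oddCore ↥H) ∈ N → (α t : ↥H ⧸ Cfsg.oddCore ↥H) ∈ N) :
    ∃ (N0 : Subgroup G) (z s : G) (ψ : ↥H →* Perm (Fin 6)), H314.Co3.CA H N0 z s ψ := by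
  obtain ⟨P, hP2, hP1, rfl⟩ := hH
  have hk : Odd (Nat.card (QuotientGroup.mk' (Cfsg.oddCore ↥(normalizer (P : Set G)))).ker) := by
    rw [QuotientGroup.ker_mk']
    exact (Nat.coprime_two_right).1 (Cfsg.Agent.Lib.HallHigman.pPrimeCore_coprime 2)
  obtain ⟨N0, z', s', C⟩ := exists_CA_of hodd hP2 hP1 (QuotientGroup.mk'_surjective _) hk D
    (fun b hb => hA b (fun n hn => in_z D hn (hb n hn))) hchar
  exact ⟨N0, z', s', _, C⟩

end Cfsg.Agent.H275.Co3
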