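import Cfsg.Agent.H275.Co3.LinInv
import Cfsg.Agent.H512.DFive.Conj
import Cfsg.Agent.H169.Co3.Map
import Cfsg.Agent.H415.C3.KitOf

/-!
# S1920: the configuration of case B in `E₆` (helper275, for helper512's E6 row)

* `exists_z0` : a configuration in `Zgrp F` gives one with `z = z0`;
* `fix_of_CB` : then every `n ∈ N0` fixes `e₀`;
* `iso_of_CB` : so `N0` acts on the 10-dimensional part by isometries.
-/

set_option autoImplicit false

open Subgroup Module

namespace Cfsg.Agent.H275.Co3

open Cfsg Cfsg.Lie Matrix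
open Cfsg.Agent.ChevalleyStructure.E6Min Cfsg.Agent.ChevalleyStructure.E6Min.Tables
  Cfsg.Agent.ChevalleyStructure.E6Min.Basic Cfsg.Agent.ChevalleyStructure.E6Min.Forms
  Cfsg.Agent.ChevalleyStructure.E6Min.Inv Cfsg.Agent.ChevalleyStructure.E6Min.Elim
  Cfsg.Agent.ChevalleyStructure.E6Min.Torus Cfsg.Agent.ChevalleyStructure.E6Min.Adjoint
  Cfsg.Agent.ChevalleyStructure.E6Min.Checks2
open Cfsg.Agent.H318.Four Cfsg.Agent.H318.Four.E6Inv
open Cfsg.Agent.H512.DFive
open Cfsg.Agent.H13.Co3 (CB)
open Cfsg.Agent.H169.Co3 (NN)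
open Cfsg.Agent.H314.Co3 (half)

section al

variable {F : Type*} [Field F]

/-- the scalar by which an element fixing the line `⟨e₀⟩` acts on it -/
def al (g : GL I27 F) : F := ((g : Matrix I27 I27 F) *ᵥ e F i0) i0

theorem e_i0 : (e F i0 : I27 → F) i0 = 1 := by simp [e]

theorem al_spec (h2 : (2 : F) ≠ 0) {g : GL I27 F} (hg : g ∈ E6univ F) (hz : g * z0 F = z0 F * g) :
    al g ≠ 0 ∧ (g : Matrix I27 I27 F) *ᵥ e F i0 = al g • e F i0 ∧
      (∀ w, p10 w = w → p10 ((g : Matrix I27 I27 F) *ᵥ w) = (g : Matrix I27 I27 F) *ᵥ w) ∧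
      (∀ w w', p10 w = w → p10 w' = w' →
        al g * BB ((g : Matrix I27 I27 F) *ᵥ w) ((g : Matrix I27 I27 F) *ᵥ w') = BB w w') := by
  obtain ⟨a, ha, h1, h3, h4⟩ := cent_act h2 hg hz
  have : al g = a := by
    unfold al
    rw [h1, Pi.smul_apply, e_i0, smul_eq_mul, mul_one]
  rw [this]
  exact ⟨ha, h1, h3, h4⟩

theorem al_mul (h2 : (2 : F) ≠ 0) {g h : GL I27 F} (hg : g ∈ E6univ F) (hz : g * z0 F = z0 F * g)
    (hh : h ∈ E6univ F) (hz' : h * z0 F = z0 F * h) : al (g * h) = al g * al h := by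
  have h1 := (al_spec h2 hg hz).2.1
  have h3 := (al_spec h2 hh hz').2.1
  have h4 : ((g * h : GL I27 F) : Matrix I27 I27 F) *ᵥ e F i0 = (al g * al h) • e F i0 := by
    rw [Units.val_mul, ← Matrix.mulVec_mulVec, h3, Matrix.mulVec_smul, h1, smul_smul, mul_comm]
  unfold al at h4 ⊢
  rw [h4, Pi.smul_apply, e_i0, smul_eq_mul, mul_one]

theorem al_one : al (1 : GL I27 F) = 1 := by
  unfold al
  rw [Units.val_one, Matrix.one_mulVec, e_i0]

theorem al_z0 : al (z0 F) = 1 := by
  unfold al
  rw [z0_mulVec, p16_e, ty_i0, if_neg (by norm_num), smul_zero, sub_zero, e_i0]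

end al


section red

variable {F : Type} [Field F] [Fintype F]

/-- **`dim [V₂₇, z] = 16`.** -/
theorem rank_of_CB (ho : Odd (Fintype.card F)) (h2 : (2 : F) ≠ 0) {P N0 : Subgroup ↥(Zgrp F)} {z s : ↥(Zgrp F)}
    {ψ : ↥(normalizer (P : Set ↥(Zgrp F))) →* Equiv.Perm (Fin 6)} (C : CB P N0 z s ψ) :
    (((z : GL I27 F) : Matrix I27 I27 F) - 1).rank = 16 := by
  classical
  obtain ⟨A, E, x, r, φ, K⟩ := Cfsg.Agent.H415.C3.exists_kit C
  have hrs : r * s = z * (s * r) := by rw [K.r_s, K.s_inv, mul_assoc]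
  have hR : N0 ≤ centralizer ({z} : Set ↥(Zgrp F)) := by
    intro n hn
    rw [mem_centralizer_singleton_iff]
    exact K.z_comm (K.N_A hn)
  have hrz : r * z = z * r := by
    rw [← K.s_sq]
    calc r * (s * s) = (r * s) * s := by group
      _ = (s⁻¹ * r) * s := by rw [K.r_s]
      _ = s⁻¹ * (r * s) := by rw [mul_assoc]
      _ = s⁻¹ * (s⁻¹ * r) := by rw [K.r_s]
      _ = s⁻¹ * s⁻¹ * r := by rw [mul_assoc]
      _ = s * s * r := by
        have : s⁻¹ * s⁻¹ = s * s := by
          rw [← _root_.mul_inv_rev, K.s_sq, inv_eq_iff_mul_eq_one]; exact K.z_sq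
        rw [this]
  have hrR : r ∈ centralizer ({z} : Set ↥(Zgrp F)) := by
    rw [mem_centralizer_singleton_iff]; exact hrz
  have hzR : z ∈ centralizer ({z} : Set ↥(Zgrp F)) := by
    rw [mem_centralizer_singleton_iff]
  let L : ↥(Zgrp F) → ((I27 → F) →ₗ[F] (I27 → F)) := fun g => Matrix.toLin' ((g : GL I27 F) : Matrix I27 I27 F)
  have Lmul : ∀ g h v, L (g * h) v = L g (L h v) := by
    intro g h v
    show Matrix.toLin' (((g * h : ↥(Zgrp F)) : GL I27 F) : Matrix I27 I27 F) v =
      Matrix.toLin' ((g : GL I27 F) : Matrix I27 I27 F) (Matrix.toLin' ((h : GL I27 F) : Matrix I27 I27 F) v)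
    rw [Matrix.toLin'_apply, Matrix.toLin'_apply, Matrix.toLin'_apply, Matrix.mulVec_mulVec, ← Units.val_mul]
    rfl
  have L1 : ∀ v, L 1 v = v := by
    intro v
    show Matrix.toLin' (1 : Matrix I27 I27 F) v = v
    rw [Matrix.toLin'_one]; rfl
  set U : Submodule F (I27 → F) := LinearMap.ker (L z + 1) with hU
  have mU : ∀ u, u ∈ U ↔ L z u = -u := by
    intro u
    rw [hU, LinearMap.mem_ker, LinearMap.add_apply, Module.End.one_apply, add_eq_zero_iff_eq_neg]
  have hinv : ∀ g ∈ centralizer ({z} : Set ↥(Zgrp F)), ∀ u ∈ U, L g u ∈ U := by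
    intro g hg u hu
    rw [mem_centralizer_singleton_iff] at hg
    rw [mU] at hu ⊢
    rw [← Lmul, ← hg, Lmul, hu, map_neg]
  let Pr : ↥(centralizer ({z} : Set ↥(Zgrp F))) →* (↥U →ₗ[F] ↥U) :=
    { toFun := fun g => (L g).restrict (hinv g g.2)
      map_one' := by
        refine LinearMap.ext fun u => Subtype.ext ?_
        exact L1 u
      map_mul' := by
        intro g h
        refine LinearMap.ext fun u => Subtype.ext ?_
        exact Lmul g h u }
  have h8 : 8 ∣ finrank F ↥U := dvd_eight_any K.nn h2 hR hrR hrs Pr hzR fun u => Subtype.ext ((mU u).1 u.2)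
  have hrg : LinearMap.range (L z - 1) = U := by
    apply le_antisymm
    · rintro _ ⟨v, rfl⟩
      rw [mU, LinearMap.sub_apply, Module.End.one_apply, map_sub, ← Lmul, C.z_sq, L1]
      abel
    · intro v hv
      rw [mU] at hv
      refine ⟨-((2 : F)⁻¹ • v), ?_⟩
      rw [LinearMap.sub_apply, Module.End.one_apply, map_neg, map_smul, hv, smul_neg, neg_neg, sub_neg_eq_add,
        ← smul_add, ← two_smul F v, smul_smul, inv_mul_cancel₀ h2, one_smul]
  have hrk : (((z : GL I27 F) : Matrix I27 I27 F) - 1).rank = finrank F ↥U := by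
    rw [← hrg, Matrix.rank, ← Matrix.toLin'_apply', map_sub, Matrix.toLin'_one]
    rfl
  rcases rank_inv ho h2 C.z_sq with h | h | h
  · exfalso
    rw [hrk] at h
    have h3 : U = ⊥ := Submodule.finrank_eq_zero.1 h
    rw [h3, LinearMap.range_eq_bot, sub_eq_zero] at hrg
    apply C.z_ne
    apply Subtype.ext
    apply Units.ext
    apply Matrix.toLin'.injective
    rw [show Matrix.toLin' ((z : GL I27 F) : Matrix I27 I27 F) = L z from rfl, hrg]
    show (1 : (I27 → F) →ₗ[F] (I27 → F)) = Matrix.toLin' (1 : Matrix I27 I27 F)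
    rw [Matrix.toLin'_one]; rfl
  · rw [hrk] at h; omega
  · exact h

/-- **A configuration with `z = z0`.** -/
theorem exists_z0 (ho : Odd (Fintype.card F)) (h3 : 3 ≤ Fintype.card F) (h2 : (2 : F) ≠ 0)
    {P N0 : Subgroup ↥(Zgrp F)} {z s : ↥(Zgrp F)}
    {ψ : ↥(normalizer (P : Set ↥(Zgrp F))) →* Equiv.Perm (Fin 6)} (C : CB P N0 z s ψ) :
    ∃ (P' N0' : Subgroup ↥(E6univ F)) (z' s' : ↥(E6univ F))
      (ψ' : ↥(normalizer (P' : Set ↥(E6univ F))) →* Equiv.Perm (Fin 6)),
      CB P' N0' z' s' ψ' ∧ (z' : GL I27 F) = z0 F := by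
  obtain ⟨x, hx⟩ := conj_z0 ho h2 C.z_sq (rank_of_CB ho h2 C)
  have C1 := Cfsg.Agent.H169.Co3.exists_map (MulAut.conj x) C
  have C2 := Cfsg.Agent.H169.Co3.exists_map (MulEquiv.subgroupCongr (Zgrp_eq h3)) C1
  exact ⟨_, _, _, _, _, C2, hx⟩

/-- vectors supported on the part of type `k` -/
def suppT (F : Type) [Field F] (k : ℕ) : Submodule F (I27 → F) where
  carrier := {w | ∀ x, ty x ≠ k → w x = 0}
  add_mem' := by
    intro a b ha hb x hx
    rw [Pi.add_apply, ha x hx, hb x hx, add_zero]
  zero_mem' := fun x _ => rfl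
  smul_mem' := by
    intro c a ha x hx
    rw [Pi.smul_apply, ha x hx, smul_zero]

omit [Fintype F] in
theorem finrank_suppT (k : ℕ) : finrank F (suppT F k) = Fintype.card {x : I27 // ty x = k} := by
  let φ : suppT F k ≃ₗ[F] ({x : I27 // ty x = k} → F) :=
    { toFun := fun w x => (w : I27 → F) x
      invFun := fun f => ⟨fun x => if h : ty x = k then f ⟨x, h⟩ else 0, fun x hx => dif_neg hx⟩
      map_add' := fun _ _ => rfl
      map_smul' := fun _ _ => rfl
      left_inv := by
        intro w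
        apply Subtype.ext
        funext x
        by_cases h : ty x = k
        · exact dif_pos h
        · rw [w.2 x h]; exact dif_neg h
      right_inv := by
        intro f
        funext x
        exact dif_pos x.2 }
  rw [φ.finrank_eq, Module.finrank_fintype_fun_eq_card]

omit [Fintype F] in
theorem mem_suppT_ten {w : I27 → F} : w ∈ suppT F 2 ↔ p10 w = w := by
  constructor
  · intro h
    funext x
    unfold p10
    split_ifs with hx
    · rfl
    · exact (h x hx).symm
  · intro h x hx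
    rw [← h]
    exact if_neg hx

omit [Fintype F] in
theorem mem_suppT_sixteen {w : I27 → F} : w ∈ suppT F 1 ↔ p16 w = w := by
  constructor
  · intro h
    funext x
    unfold p16
    split_ifs with hx
    · rfl
    · exact (h x hx).symm
  · intro h x hx
    rw [← h]
    exact if_neg hx

theorem card_ten : Fintype.card {x : I27 // ty x = 2} = 10 := by decide +kernel

theorem card_sixteen : Fintype.card {x : I27 // ty x = 1} = 16 := by decide +kernel

/-- the bilinear form -/
def Bl (F : Type) [Field F] : (I27 → F) →ₗ[F] (I27 → F) →ₗ[F] F :=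
  LinearMap.mk₂ F BB BB_add_left BB_smul_left BB_add_right BB_smul_right

/-- **Non-central involutions of `N0` fix `e₀`.** -/
theorem al_of_inv (ho : Odd (Fintype.card F)) (h3 : 3 ≤ Fintype.card F) (h2 : (2 : F) ≠ 0) {n m : GL I27 F}
    (hn : n ∈ E6univ F) (hnz : n * z0 F = z0 F * n) (hmz : m * z0 F = z0 F * m)
    (hnn : n * n = 1) (hnm : n * m = z0 F * (m * n)) : al n = 1 := by
  classical
  by_contra hal
  obtain ⟨ha0, h1, h10, hB⟩ := al_spec h2 hn hnz
  have hsq : al n * al n = 1 := by rw [← al_mul h2 hn hnz hn hnz, hnn, al_one]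
  have ha : al n = -1 := (mul_self_eq_one_iff.1 hsq).resolve_left hal
  let N : (I27 → F) →ₗ[F] (I27 → F) := Matrix.toLin' (n : Matrix I27 I27 F)
  let M : (I27 → F) →ₗ[F] (I27 → F) := Matrix.toLin' (m : Matrix I27 I27 F)
  have Na : ∀ v, N v = (n : Matrix I27 I27 F) *ᵥ v := fun v => Matrix.toLin'_apply _ _
  have Ma : ∀ v, M v = (m : Matrix I27 I27 F) *ᵥ v := fun v => Matrix.toLin'_apply _ _
  have NN' : ∀ v, N (N v) = v := by
    intro v
    rw [Na, Na, Matrix.mulVec_mulVec, ← Units.val_mul, hnn, Units.val_one, Matrix.one_mulVec]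
  have hN10 : ∀ v ∈ suppT F 2, N v ∈ suppT F 2 := by
    intro v hv
    rw [mem_suppT_ten] at hv ⊢
    rw [Na, h10 v hv]
  have h16 : ∀ {g : GL I27 F}, g * z0 F = z0 F * g → ∀ v ∈ suppT F 1, (g : Matrix I27 I27 F) *ᵥ v ∈ suppT F 1 := by
    intro g hg v hv
    rw [mem_suppT_sixteen] at hv ⊢
    rw [cent_p16 h2 hg, hv]
  have hzm : ∀ v ∈ suppT F 1, (z0 F : Matrix I27 I27 F) *ᵥ v = -v := by
    intro v hv
    rw [mem_suppT_sixteen] at hv
    rw [z0_mulVec, hv, two_smul]
    abel
  have hMinj : Function.Injective M := by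
    intro u v huv
    have h4 : ∀ w : I27 → F, ((m⁻¹ : GL I27 F) : Matrix I27 I27 F) *ᵥ M w = w := by
      intro w
      rw [Ma, Matrix.mulVec_mulVec, ← Units.val_mul, inv_mul_cancel, Units.val_one, Matrix.one_mulVec]
    rw [← h4 u, ← h4 v, huv]
  -- the part of dimension 16
  have d16 := half h2 N M hMinj (suppT F 1) (fun v hv => by rw [Na]; exact h16 hnz v hv)
    (fun v hv => by rw [Ma]; exact h16 hmz v hv) (fun v _ => NN' v) (fun v hv => by
      have h4 : N (M v) = (z0 F : Matrix I27 I27 F) *ᵥ (M (N v)) := by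
        rw [Na, Ma, Ma, Na, Matrix.mulVec_mulVec, Matrix.mulVec_mulVec, Matrix.mulVec_mulVec, ← Units.val_mul,
          ← Units.val_mul, ← Units.val_mul, hnm, mul_assoc]
      rw [h4]
      refine hzm _ ?_
      rw [Ma, Na]
      exact h16 hmz _ (h16 hnz v hv))
  rw [finrank_suppT, card_sixteen] at d16
  -- the part of dimension 10
  have s10 := finrank_split h2 N (suppT F 2) hN10 (fun v _ => NN' v)
  rw [finrank_suppT, card_ten] at s10
  have hnd : ∀ v ∈ suppT F 2, (∀ w ∈ suppT F 2, Bl F v w = 0) → v = 0 := by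
    intro v hv h
    exact eq_zero_of_BB (mem_suppT_ten.1 hv) fun w hw => h w (mem_suppT_ten.2 hw)
  have hBl : ∀ v ∈ suppT F 2, ∀ w ∈ suppT F 2, Bl F (N v) (N w) = - Bl F v w := by
    intro v hv w hw
    have h4 := hB v w (mem_suppT_ten.1 hv) (mem_suppT_ten.1 hw)
    rw [ha] at h4
    have h5 : BB (N v) (N w) = - BB v w := by
      rw [Na, Na, ← h4]; ring
    exact h5
  have e1 := finrank_le_of_anti h2 N (suppT F 2) hN10 (fun v _ => NN' v) (Bl F) hnd hBl 1 (mul_one 1)
  have e2 := finrank_le_of_anti h2 N (suppT F 2) hN10 (fun v _ => NN' v) (Bl F) hnd hBl (-1) (by ring)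
  rw [one_smul] at e1
  have f1 : N - (-1 : F) • (1 : (I27 → F) →ₗ[F] (I27 → F)) = N + 1 := by
    refine LinearMap.ext fun v => ?_
    show N v - (-1 : F) • v = N v + v
    module
  have f2 : N + (-1 : F) • (1 : (I27 → F) →ₗ[F] (I27 → F)) = N - 1 := by
    refine LinearMap.ext fun v => ?_
    show N v + (-1 : F) • v = N v - v
    module
  rw [f1, f2] at e2
  -- the fixed space
  have hker : LinearMap.ker (N - 1) = (suppT F 2 ⊓ LinearMap.ker (N - 1)) ⊔ (suppT F 1 ⊓ LinearMap.ker (N - 1)) := by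
    apply le_antisymm _ (sup_le inf_le_right inf_le_right)
    intro v hv
    have hv' : N v = v := by
      rwa [LinearMap.mem_ker, LinearMap.sub_apply, Module.End.one_apply, sub_eq_zero] at hv
    have hNe : N (e F i0) = -e F i0 := by rw [Na, h1, ha, neg_one_smul]
    have hd := decomp v
    have k16 : N (p16 v) = p16 v := by
      rw [Na, ← cent_p16 h2 hnz, ← Na, hv']
    have hNp : N (p10 v) ∈ suppT F 2 := hN10 _ (mem_suppT_ten.2 (p10_p10 v))
    have hNd : v = -(v i0 • e F i0) + N (p10 v) + p16 v := by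
      conv_lhs => rw [← hv', hd, map_add, map_add, map_smul, hNe, k16, smul_neg]
    have hi0 : v i0 = 0 := by
      have h4 := congrFun hNd i0
      have h5 : N (p10 v) i0 = 0 := hNp i0 (by rw [ty_i0]; norm_num)
      have h6 : p16 v i0 = 0 := by
        unfold p16; rw [if_neg (by rw [ty_i0]; norm_num)]
      rw [Pi.add_apply, Pi.add_apply, Pi.neg_apply, Pi.smul_apply, e_i0, h5, h6, smul_eq_mul, mul_one, add_zero,
        add_zero] at h4
      have h7 : (2 : F) * v i0 = 0 := by linear_combination h4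
      exact (mul_eq_zero.1 h7).resolve_left h2
    rw [hi0, zero_smul, neg_zero, zero_add] at hNd
    rw [hi0, zero_smul, zero_add] at hd
    have k10 : N (p10 v) = p10 v := by
      have h4 : N (p10 v) + p16 v = p10 v + p16 v := by rw [← hNd, ← hd]
      exact add_right_cancel h4
    have mk : ∀ {w : I27 → F}, N w = w → w ∈ LinearMap.ker (N - 1) := by
      intro w hw
      rw [LinearMap.mem_ker, LinearMap.sub_apply, Module.End.one_apply, hw, sub_self]
    rw [hd]
    exact Submodule.add_mem_sup ⟨mem_suppT_ten.2 (p10_p10 v), mk k10⟩ ⟨mem_suppT_sixteen.2 (p16_p16 v), mk k16⟩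
  have hinf : (suppT F 2 ⊓ LinearMap.ker (N - 1)) ⊓ (suppT F 1 ⊓ LinearMap.ker (N - 1)) = ⊥ := by
    rw [eq_bot_iff]
    rintro v ⟨⟨hv1, -⟩, ⟨hv2, -⟩⟩
    show v = 0
    funext x
    by_cases hx : ty x = 2
    · exact hv2 x (by rw [hx]; norm_num)
    · exact hv1 x hx
  have hsum := Submodule.finrank_sup_add_finrank_inf_eq (suppT F 2 ⊓ LinearMap.ker (N - 1))
    (suppT F 1 ⊓ LinearMap.ker (N - 1))
  rw [hinf, finrank_bot, add_zero, ← hker] at hsum
  have hrn := LinearMap.finrank_range_add_finrank_ker (N - 1)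
  rw [Module.finrank_fintype_fun_eq_card, show Fintype.card I27 = 27 by decide] at hrn
  have hrk : ((n : Matrix I27 I27 F) - 1).rank = finrank F (LinearMap.range (N - 1)) := by
    rw [Matrix.rank, ← Matrix.toLin'_apply', map_sub, Matrix.toLin'_one]
    rfl
  have hnZ : n ∈ Zgrp F := by rw [Zgrp_eq h3]; exact hn
  have hri := rank_inv ho h2 (g := ⟨n, hnZ⟩) (Subtype.ext hnn)
  have hri' : ((n : Matrix I27 I27 F) - 1).rank = 0 ∨ ((n : Matrix I27 I27 F) - 1).rank = 12 ∨
    ((n : Matrix I27 I27 F) - 1).rank = 16 := hri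
  rw [hrk] at hri'
  omega

/-- **`N0` fixes `e₀`.** -/
theorem al_of_CB (ho : Odd (Fintype.card F)) (h3 : 3 ≤ Fintype.card F) (h2 : (2 : F) ≠ 0)
    {P N0 : Subgroup ↥(E6univ F)} {z s : ↥(E6univ F)}
    {ψ : ↥(normalizer (P : Set ↥(E6univ F))) →* Equiv.Perm (Fin 6)} (C : CB P N0 z s ψ)
    (hz : (z : GL I27 F) = z0 F) : ∀ n ∈ N0, al (n : GL I27 F) = 1 := by
  have K : NN N0 z s := ⟨C.card, C.sN, C.s_sq, C.z_sq, C.z_ne, C.s_cen, C.sq, C.comm, C.cen⟩
  have hcz : ∀ n ∈ N0, (n : GL I27 F) * z0 F = z0 F * n := by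
    intro n hn
    have h := congrArg Subtype.val (K.z_comm hn)
    rw [← hz]
    exact h
  have hmul : ∀ n ∈ N0, ∀ m ∈ N0, al ((n * m : ↥(E6univ F)) : GL I27 F) = al (n : GL I27 F) * al (m : GL I27 F) := by
    intro n hn m hm
    exact al_mul h2 n.2 (hcz n hn) m.2 (hcz m hm)
  have key : ∀ n ∈ N0, n * n = 1 → ∀ m ∈ N0, n * m ≠ m * n → al (n : GL I27 F) = 1 := by
    intro n hn hnn m hm hne
    refine al_of_inv ho h3 h2 n.2 (hcz n hn) (hcz m hm) (congrArg Subtype.val hnn) ?_
    rw [← hz]
    exact congrArg Subtype.val ((C.comm n hn m hm).resolve_left hne)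
  obtain ⟨a, haN, b, hbN, c, -, d, -, haa, -, hab, -, -, -⟩ := K.exists_gens
  have hne : a * b ≠ b * a := by
    intro h
    rw [h] at hab
    exact C.z_ne (by simpa using hab.symm)
  have ha : al (a : GL I27 F) = 1 := key a haN haa b hbN hne
  have hzN := K.zN
  -- `s`
  have hs : al (s : GL I27 F) = 1 := by
    have hsa := C.s_cen a haN
    have hsb := C.s_cen b hbN
    have habN := mul_mem haN hbN
    have habne : a * (a * b) ≠ (a * b) * a := by
      intro h
      rw [mul_assoc] at h
      exact hne (mul_left_cancel h)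
    have hzb := K.z_comm hbN
    rcases C.sq b hbN with hb | hb
    · have h1 := key b hbN hb a haN hne.symm
      have hsq : (a * b * s) * (a * b * s) = 1 := by
        have e1 : (a * b * s) * (a * b * s) = a * b * (s * (a * b)) * s := by group
        have e2 : a * b * (a * b) = z := by
          calc a * b * (a * b) = z * (b * a) * (a * b) := by rw [hab]
            _ = z * (b * (a * a) * b) := by group
            _ = z := by rw [haa, mul_one, hb, mul_one]
        rw [e1, ← C.s_cen _ habN]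
        calc a * b * (a * b * s) * s = a * b * (a * b) * (s * s) := by group
          _ = 1 := by rw [e2, C.s_sq, C.z_sq]
      have h4 := key (a * b * s) (mul_mem habN C.sN) hsq a haN (by
        intro h
        apply habne
        have h5 : a * b * a * s = a * (a * b) * s := by
          calc a * b * a * s = a * b * (a * s) := by group
            _ = a * b * (s * a) := by rw [hsa]
            _ = a * b * s * a := by group
            _ = a * (a * b * s) := h
            _ = a * (a * b) * s := by group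
        exact (mul_right_cancel h5).symm)
      rw [hmul _ habN _ C.sN, hmul _ haN _ hbN, ha, h1, one_mul, one_mul] at h4
      exact h4
    · have e2 : a * b * (a * b) = 1 := by
        calc a * b * (a * b) = z * (b * a) * (a * b) := by rw [hab]
          _ = z * (b * (a * a) * b) := by group
          _ = 1 := by rw [haa, mul_one, hb, C.z_sq]
      have h1 := key (a * b) habN e2 a haN habne.symm
      rw [hmul _ haN _ hbN, ha, one_mul] at h1
      have hsq : (b * s) * (b * s) = 1 := by
        calc (b * s) * (b * s) = b * (s * b) * s := by group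
          _ = b * (b * s) * s := by rw [hsb]
          _ = (b * b) * (s * s) := by group
          _ = 1 := by rw [hb, C.s_sq, C.z_sq]
      have h4 := key (b * s) (mul_mem hbN C.sN) hsq a haN (by
        intro h
        apply hne
        have h5 : b * a * s = a * b * s := by
          calc b * a * s = b * (a * s) := by group
            _ = b * (s * a) := by rw [hsa]
            _ = b * s * a := by group
            _ = a * (b * s) := h
            _ = a * b * s := by group
        exact (mul_right_cancel h5).symm)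
      rw [hmul _ hbN _ C.sN, h1, one_mul] at h4
      exact h4
  -- involutions
  have hinv : ∀ n ∈ N0, n * n = 1 → al (n : GL I27 F) = 1 := by
    intro n hn hnn
    by_cases hc : ∃ m ∈ N0, n * m ≠ m * n
    · obtain ⟨m, hm, h⟩ := hc
      exact key n hn hnn m hm h
    · push Not at hc
      have h1 : (n * a) * (n * a) = 1 := by
        calc (n * a) * (n * a) = n * (a * n) * a := by group
          _ = n * (n * a) * a := by rw [hc a haN]
          _ = (n * n) * (a * a) := by group
          _ = 1 := by rw [hnn, haa, one_mul]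
      have h4 := key (n * a) (mul_mem hn haN) h1 b hbN (by
        intro h
        apply hne
        have h5 : n * (a * b) = n * (b * a) := by
          calc n * (a * b) = n * a * b := by group
            _ = b * (n * a) := h
            _ = (b * n) * a := by group
            _ = (n * b) * a := by rw [hc b hbN]
            _ = n * (b * a) := by group
        exact mul_left_cancel h5)
      rw [hmul _ hn _ haN, ha, mul_one] at h4
      exact h4
  intro n hn
  rcases C.sq n hn with h | h
  · exact hinv n hn h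
  · have h1 : (n * s) * (n * s) = 1 := by
      calc (n * s) * (n * s) = n * (s * n) * s := by group
        _ = n * (n * s) * s := by rw [C.s_cen n hn]
        _ = (n * n) * (s * s) := by group
        _ = 1 := by rw [h, C.s_sq, C.z_sq]
    have h4 := hinv _ (mul_mem hn C.sN) h1
    rw [hmul _ hn _ C.sN, hs, mul_one] at h4
    exact h4

/-- `N0` fixes the vector `e₀` -/
theorem fix_of_CB (ho : Odd (Fintype.card F)) (h3 : 3 ≤ Fintype.card F) (h2 : (2 : F) ≠ 0)
    {P N0 : Subgroup ↥(E6univ F)} {z s : ↥(E6univ F)}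
    {ψ : ↥(normalizer (P : Set ↥(E6univ F))) →* Equiv.Perm (Fin 6)} (C : CB P N0 z s ψ)
    (hz : (z : GL I27 F) = z0 F) : ∀ n ∈ N0, ((n : GL I27 F) : Matrix I27 I27 F) *ᵥ e F i0 = e F i0 := by
  intro n hn
  have K : NN N0 z s := ⟨C.card, C.sN, C.s_sq, C.z_sq, C.z_ne, C.s_cen, C.sq, C.comm, C.cen⟩
  have hcz : (n : GL I27 F) * z0 F = z0 F * n := by
    have h := congrArg Subtype.val (K.z_comm hn)
    rw [← hz]
    exact h
  rw [(al_spec h2 n.2 hcz).2.1, al_of_CB ho h3 h2 C hz n hn, one_smul]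

/-- **`N0` acts on the 10-dimensional part by isometries.** -/
theorem iso_of_CB (ho : Odd (Fintype.card F)) (h3 : 3 ≤ Fintype.card F) (h2 : (2 : F) ≠ 0)
    {P N0 : Subgroup ↥(E6univ F)} {z s : ↥(E6univ F)}
    {ψ : ↥(normalizer (P : Set ↥(E6univ F))) →* Equiv.Perm (Fin 6)} (C : CB P N0 z s ψ)
    (hz : (z : GL I27 F) = z0 F) : ∀ n ∈ N0, ∀ w w' : I27 → F, p10 w = w → p10 w' = w' →
      BB (((n : GL I27 F) : Matrix I27 I27 F) *ᵥ w) (((n : GL I27 F) : Matrix I27 I27 F) *ᵥ w') = BB w w' := by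
  intro n hn w w' hw hw'
  have K : NN N0 z s := ⟨C.card, C.sN, C.s_sq, C.z_sq, C.z_ne, C.s_cen, C.sq, C.comm, C.cen⟩
  have hcz : (n : GL I27 F) * z0 F = z0 F * n := by
    have h := congrArg Subtype.val (K.z_comm hn)
    rw [← hz]
    exact h
  have h := (al_spec h2 n.2 hcz).2.2.2 w w' hw hw'
  rw [al_of_CB ho h3 h2 C hz n hn, one_mul] at h
  exact h

end red

end Cfsg.Agent.H275.Co3
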