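import Cfsg.Agent.H415.C3.Kit

/-!
# S1920: the kit lifts to central extensions of odd order (helper275)

`eq_of_two` : 2-elements with the same image are equal; `kit_lift` : the kit of `G` lifts to `Gh`.
-/

set_option autoImplicit false

open Subgroup Equiv.Perm
open scoped commutatorElement

namespace Cfsg.Agent.H275.Co3

open Cfsg.Agent.H415.C3

section lift

variable {G Gh : Type*} [Group G] [Group Gh] {f : Gh →* G}

/-- 2-elements with the same image are equal -/
theorem eq_of_two (hc : ∀ g, f g = 1 → ∀ x, g * x = x * g) (hodd : Odd (Nat.card f.ker)) {a b : Gh}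
    (ha : ∃ k, a ^ 2 ^ k = 1) (hb : ∃ k, b ^ 2 ^ k = 1) (h : f a = f b) : a = b := by
  obtain ⟨k, hk⟩ := ha
  obtain ⟨l, hl⟩ := hb
  have h1 : f (a * b⁻¹) = 1 := by rw [map_mul, map_inv, h, mul_inv_cancel]
  have hcom : Commute (a * b⁻¹) b := hc _ h1 b
  have h2 : a = (a * b⁻¹) * b := by group
  have h3 : (a * b⁻¹) ^ 2 ^ (k + l) = 1 := by
    have h4 : a ^ 2 ^ (k + l) = 1 := by rw [pow_add, pow_mul, hk, one_pow]
    have h5 : b ^ 2 ^ (k + l) = 1 := by rw [add_comm, pow_add, pow_mul, hl, one_pow]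
    rw [h2, hcom.mul_pow, h5, mul_one] at h4
    exact h4
  have h4 : orderOf (a * b⁻¹) ∣ 2 ^ (k + l) := orderOf_dvd_of_pow_eq_one h3
  have h5 : orderOf (⟨a * b⁻¹, h1⟩ : f.ker) ∣ Nat.card f.ker := orderOf_dvd_natCard _
  rw [← Subgroup.orderOf_coe] at h5
  have h6 : orderOf (a * b⁻¹) ∣ 1 := by
    have h7 : (Nat.card f.ker).Coprime (2 ^ (k + l)) := ((Nat.coprime_two_right).2 hodd).pow_right _
    exact h7 ▸ Nat.dvd_gcd h5 h4
  have h7 : a * b⁻¹ = 1 := orderOf_eq_one_iff.1 (Nat.dvd_one.1 h6)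
  exact mul_inv_eq_one.1 h7

theorem two_conj {a : Gh} (ha : ∃ k, a ^ 2 ^ k = 1) (g : Gh) : ∃ k, (g * a * g⁻¹) ^ 2 ^ k = 1 := by
  obtain ⟨k, hk⟩ := ha
  exact ⟨k, by rw [conj_pow, hk, mul_one, mul_inv_cancel]⟩

/-- a 2-element commutes with everything which commutes with it below -/
theorem comm_of_two (hc : ∀ g, f g = 1 → ∀ x, g * x = x * g) (hodd : Odd (Nat.card f.ker)) {a g : Gh}
    (ha : ∃ k, a ^ 2 ^ k = 1) (h : f g * f a = f a * f g) : g * a = a * g := by
  have h1 := eq_of_two hc hodd (two_conj ha g) ha (by rw [map_mul, map_mul, map_inv, h, mul_inv_cancel_right])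
  rwa [mul_inv_eq_iff_eq_mul] at h1

end lift

/-- **The kit lifts.** -/
theorem kit_lift {G Gh : Type*} [Group G] [Group Gh] [Finite Gh] (f : Gh →* G) (hf : Function.Surjective f)
    (hc : ∀ g, f g = 1 → ∀ x, g * x = x * g) (hodd : Odd (Nat.card f.ker)) {N0 A E : Subgroup G} {z s x r : G}
    {ψ : ↥A →* Equiv.Perm (Fin 6)} (K : Kit N0 A E z s x r ψ) :
    ∃ (Nh Eh : Subgroup Gh) (zh sh xh rh : Gh),
      Kit Nh (A.comap f) Eh zh sh xh rh (ψ.comp (f.subgroupComap A)) ∧ Nh.map f = N0 ∧ Eh.map f = E ∧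
        f zh = z ∧ f sh = s ∧ f xh = x ∧ f rh = r := by
  classical
  have h2p : Fact (Nat.Prime 2) := ⟨Nat.prime_two⟩
  have hG : Finite G := Finite.of_surjective f hf
  -- the Sylow 2-subgroup of the preimage of `N0`
  set C : Subgroup Gh := N0.comap f with hC
  obtain ⟨S⟩ : Nonempty (Sylow 2 C) := inferInstance
  set Nh : Subgroup Gh := (S : Subgroup C).map C.subtype with hNh
  have hN2 : IsPGroup 2 Nh := S.isPGroup'.map _
  have htwo : ∀ n ∈ Nh, ∃ k, n ^ 2 ^ k = 1 := by
    intro n hn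
    obtain ⟨k, hk⟩ := hN2 ⟨n, hn⟩
    exact ⟨k, congrArg Subtype.val hk⟩
  have hfN : ∀ n ∈ Nh, f n ∈ N0 := by
    rintro _ ⟨n, -, rfl⟩
    exact n.2
  have hinj : ∀ a ∈ Nh, ∀ b ∈ Nh, f a = f b → a = b := fun a ha b hb h => eq_of_two hc hodd (htwo a ha) (htwo b hb) h
  -- the order of `C`
  have hcC : Nat.card C = 64 * Nat.card f.ker := by
    have h1 := (f.comp C.subtype).ker.card_mul_index
    rw [index_ker, MonoidHom.range_comp, range_subtype] at h1
    have h2 : (f.comp C.subtype).ker = f.ker.subgroupOf C := by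
      ext x
      rfl
    have h3 : C.map f = N0 := by rw [hC, map_comap_eq_self_of_surjective hf]
    have hle : f.ker ≤ C := by
      intro x hx
      rw [hC, mem_comap, MonoidHom.mem_ker.1 hx]
      exact one_mem _
    rw [h2, Nat.card_congr (subgroupOfEquivOfLe hle).toEquiv, h3, K.card, mul_comm] at h1
    exact h1.symm
  have hcS : Nat.card Nh = 64 := by
    have h1 : Nat.card Nh = Nat.card (S : Subgroup C) :=
      (Nat.card_congr ((S : Subgroup C).equivMapOfInjective C.subtype C.subtype_injective).toEquiv).symm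
    have h2 := S.card_eq_multiplicity
    have h3 : (Nat.card C).factorization 2 = 6 := by
      rw [hcC, Nat.factorization_mul (by norm_num) Nat.card_pos.ne', show (64 : ℕ) = 2 ^ 6 by norm_num,
        Nat.Prime.factorization_pow Nat.prime_two]
      have h4 : (Nat.card f.ker).factorization 2 = 0 := by
        apply Nat.factorization_eq_zero_of_not_dvd
        intro h5
        exact (Nat.not_even_iff_odd.2 hodd) (even_iff_two_dvd.2 h5)
      rw [Finsupp.add_apply, h4, add_zero, Finsupp.single_eq_same]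
    rw [h3] at h2
    rw [h1]
    exact h2
  have hmap : Nh.map f = N0 := by
    refine Subgroup.eq_of_le_of_card_ge ?_ ?_
    · rintro _ ⟨n, hn, rfl⟩
      exact hfN n hn
    · rw [K.card]
      have h1 : Nat.card (Nh.map f) = Nat.card Nh := by
        refine (Nat.card_congr (Equiv.ofBijective (fun n : Nh => (⟨f n, mem_map_of_mem f n.2⟩ : Nh.map f)) ⟨?_, ?_⟩)).symm
        · intro a b hab
          exact Subtype.ext (hinj a a.2 b b.2 (congrArg Subtype.val hab))
        · rintro ⟨_, n, hn, rfl⟩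
          exact ⟨⟨n, hn⟩, rfl⟩
      rw [h1, hcS]
  have hex : ∀ n ∈ N0, ∃ m ∈ Nh, f m = n := by
    intro n hn
    rw [← hmap] at hn
    obtain ⟨m, hm, hmn⟩ := hn
    exact ⟨m, hm, hmn⟩
  -- 2-elements above `N0` are in `Nh`
  have hmem : ∀ g : Gh, (∃ k, g ^ 2 ^ k = 1) → f g ∈ N0 → g ∈ Nh := by
    intro g hg hgN
    obtain ⟨m, hm, hmg⟩ := hex _ hgN
    rw [← eq_of_two hc hodd (htwo m hm) hg hmg]
    exact hm
  obtain ⟨sh, hsN, hfs⟩ := hex s K.sN
  have hfz : f (sh * sh) = z := by rw [map_mul, hfs, K.s_sq]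
  have hzN : sh * sh ∈ Nh := mul_mem hsN hsN
  -- `E`
  set C2 : Subgroup Gh := E.comap f with hC2
  set Eh : Subgroup Gh := ⁅C2, C2⁆ with hEh
  have hEC : Eh ≤ C2 := by
    rw [hEh, commutator_le]
    intro a ha b hb
    rw [commutatorElement_def]
    exact mul_mem (mul_mem (mul_mem ha hb) (inv_mem ha)) (inv_mem hb)
  have hmapE : Eh.map f = E := by
    rw [hEh, map_commutator, hC2, map_comap_eq_self_of_surjective hf, K.E_perf]
  have hexE : ∀ e ∈ E, ∃ m ∈ Eh, f m = e := by
    intro e he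
    rw [← hmapE] at he
    obtain ⟨m, hm, hme⟩ := he
    exact ⟨m, hm, hme⟩
  have hfE : ∀ e ∈ Eh, f e ∈ E := fun e he => hEC he
  have hEperf : ⁅Eh, Eh⁆ = Eh := by
    refine le_antisymm ?_ ?_
    · rw [commutator_le]
      intro a ha b hb
      rw [commutatorElement_def]
      exact mul_mem (mul_mem (mul_mem ha hb) (inv_mem ha)) (inv_mem hb)
    · have h1 : ∀ a ∈ C2, ∀ b ∈ C2, ⁅a, b⁆ ∈ ⁅Eh, Eh⁆ := by
        intro a ha b hb
        obtain ⟨a', ha', hfa⟩ := hexE _ ha
        obtain ⟨b', hb', hfb⟩ := hexE _ hb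
        have h2 : f (a * a'⁻¹) = 1 := by rw [map_mul, map_inv, hfa, mul_inv_cancel]
        have h3 : f (b * b'⁻¹) = 1 := by rw [map_mul, map_inv, hfb, mul_inv_cancel]
        have ca := hc _ h2
        have cb := hc _ h3
        have h4 : ⁅a, b⁆ = ⁅a', b'⁆ := by
          obtain ⟨c, hcc⟩ : ∃ c, c = a * a'⁻¹ := ⟨_, rfl⟩
          obtain ⟨d, hdd⟩ : ∃ d, d = b * b'⁻¹ := ⟨_, rfl⟩
          have ea : a = c * a' := by rw [hcc]; group
          have eb : b = d * b' := by rw [hdd]; group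
          rw [← hcc] at ca
          rw [← hdd] at cb
          rw [ea, eb, commutatorElement_def, commutatorElement_def]
          calc c * a' * (d * b') * (c * a')⁻¹ * (d * b')⁻¹
              = c * (a' * (d * b') * a'⁻¹) * c⁻¹ * b'⁻¹ * d⁻¹ := by group
            _ = (a' * (d * b') * a'⁻¹) * c * c⁻¹ * b'⁻¹ * d⁻¹ := by rw [ca]
            _ = a' * d * b' * a'⁻¹ * b'⁻¹ * d⁻¹ := by group
            _ = d * a' * b' * a'⁻¹ * b'⁻¹ * d⁻¹ := by rw [← cb a']
            _ = d * (a' * b' * a'⁻¹ * b'⁻¹) * d⁻¹ := by group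
            _ = (a' * b' * a'⁻¹ * b'⁻¹) * d * d⁻¹ := by rw [cb]
            _ = a' * b' * a'⁻¹ * b'⁻¹ := by group
        rw [h4]
        exact commutator_mem_commutator ha' hb'
      rw [hEh] at h1 ⊢
      exact (commutator_le).2 h1
  -- `x`
  obtain ⟨g, hgE, hgx⟩ := hexE x K.xE
  obtain ⟨k, hk⟩ := K.x_five
  obtain ⟨j, m, hm5, hm⟩ : ∃ j m, ¬ 5 ∣ m ∧ orderOf g = 5 ^ j * m := by
    obtain ⟨j, m, h1, h2⟩ := Nat.exists_eq_pow_mul_and_not_dvd (orderOf_pos g).ne' 5 (by norm_num)
    exact ⟨j, m, h1, h2⟩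
  obtain ⟨t, ht1, ht2⟩ : ∃ t : ℕ, t ≡ 1 [MOD 5 ^ k] ∧ t ≡ 0 [MOD m] := by
    have hcop : Nat.Coprime (5 ^ k) m :=
      Nat.Coprime.pow_left k ((Nat.Prime.coprime_iff_not_dvd Nat.prime_five).2 hm5)
    obtain ⟨t, h1, h2⟩ := Nat.chineseRemainder hcop 1 0
    exact ⟨t, h1, h2⟩
  have hfx : f (g ^ t) = x := by
    rw [map_pow, hgx]
    have h1 : x ^ t = x ^ 1 := by
      rw [pow_eq_pow_iff_modEq]
      exact ht1.of_dvd (orderOf_dvd_of_pow_eq_one hk)
    rw [h1, pow_one]
  have hx5 : ∃ k, (g ^ t) ^ 5 ^ k = 1 := by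
    refine ⟨j, ?_⟩
    rw [← pow_mul]
    apply orderOf_dvd_iff_pow_eq_one.1
    rw [hm, mul_comm]
    exact Nat.mul_dvd_mul ((Nat.modEq_zero_iff_dvd).1 ht2) (dvd_refl _)
  -- `r`
  obtain ⟨rh, hfr⟩ := hf r
  -- the action on the 2-elements
  have hmA : ∀ g, g ∈ A.comap f ↔ ∀ n ∈ Nh, g * n = n * g ∨ g * n = (sh * sh) * (n * g) := by
    intro g
    rw [mem_comap, K.mem_A]
    constructor
    · intro h n hn
      rcases h (f n) (hfN n hn) with h1 | h1
      · left
        exact comm_of_two hc hodd (htwo n hn) h1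
      · right
        have h2 : g * n * g⁻¹ = (sh * sh) * n := by
          refine eq_of_two hc hodd (two_conj (htwo n hn) g) (htwo _ (mul_mem hzN hn)) ?_
          rw [map_mul, map_mul, map_inv, h1, map_mul, hfz]
          group
        rw [mul_inv_eq_iff_eq_mul, mul_assoc] at h2
        exact h2
    · intro h n hn
      obtain ⟨m, hm, rfl⟩ := hex n hn
      rcases h m hm with h1 | h1
      · left; rw [← map_mul, h1, map_mul]
      · right
        have h2 : f (g * m) = f (sh * sh) * f (m * g) := by rw [h1, map_mul]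
        rw [map_mul, hfz, map_mul] at h2
        exact h2
  have hNA : Nh ≤ A.comap f := fun n hn => K.N_A (hfN n hn)
  have hpsi : ∀ g (hg : g ∈ A.comap f), (ψ.comp (f.subgroupComap A)) ⟨g, hg⟩ = ψ ⟨f g, hg⟩ := fun g hg => rfl
  refine ⟨Nh, Eh, sh * sh, sh, g ^ t, rh,
    { mem_A := hmA
      N_two := hN2
      card := hcS
      sN := hsN
      s_sq := rfl
      z_sq := ?_
      z_ne := ?_
      s_cen := ?_
      sq := ?_
      comm := ?_
      cen := ?_
      N_ker := ?_
      ker_card := ?_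
      ker_solv := ?_
      even := ?_
      E_perf := hEperf
      E_comm := ?_
      E_img := ?_
      xE := pow_mem hgE t
      x_five := hx5
      psi_x := ?_
      rN := ?_
      rE := ?_
      r_s := ?_
      psi_r := ?_ }, hmap, hmapE, hfz, hfs, hfx, hfr⟩
  · exact hinj _ (mul_mem hzN hzN) _ (one_mem _) (by rw [map_mul, hfz, K.z_sq, map_one])
  · intro h
    apply K.z_ne
    rw [← hfz, h, map_one]
  · intro n hn
    exact comm_of_two hc hodd (htwo sh hsN) (by rw [hfs]; exact K.s_cen _ (hfN n hn))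
  · intro n hn
    rcases K.sq _ (hfN n hn) with h | h
    · left
      exact hinj _ (mul_mem hn hn) _ (one_mem _) (by rw [map_mul, h, map_one])
    · right
      exact hinj _ (mul_mem hn hn) _ hzN (by rw [map_mul, h, hfz])
  · intro n hn m hm'
    rcases K.comm _ (hfN n hn) _ (hfN m hm') with h | h
    · left
      exact hinj _ (mul_mem hn hm') _ (mul_mem hm' hn) (by rw [map_mul, h, map_mul])
    · right
      exact hinj _ (mul_mem hn hm') _ (mul_mem hzN (mul_mem hm' hn)) (by rw [map_mul, h, map_mul, hfz, map_mul])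
  · intro n hn h
    have h1 : f n ∈ zpowers s := by
      apply K.cen _ (hfN n hn)
      intro m hm'
      obtain ⟨m', hm'', rfl⟩ := hex m hm'
      rw [← map_mul, h m' hm'', map_mul]
    obtain ⟨i, hi⟩ := mem_zpowers_iff.1 h1
    exact mem_zpowers_iff.2 ⟨i, hinj _ (zpow_mem hsN i) _ hn (by rw [map_zpow, hfs, hi])⟩
  · intro n h hn
    exact K.N_ker (f n) h (hfN n hn)
  · obtain ⟨m', hm', hcard⟩ := K.ker_card
    refine ⟨m' * Nat.card f.ker, hm'.mul hodd, ?_⟩
    have hsurj : Function.Surjective (f.subgroupComap A) := f.subgroupComap_surjective_of_surjective A hf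
    have h1 : Nat.card (ψ.comp (f.subgroupComap A)).ker = Nat.card ψ.ker * Nat.card (f.subgroupComap A).ker := by
      have h3 := card_mul_index ((f.subgroupComap A).ker)
      rw [index_ker, MonoidHom.range_eq_top.2 hsurj, card_top] at h3
      have h4 := card_mul_index ((ψ.comp (f.subgroupComap A)).ker)
      have h5 : (ψ.comp (f.subgroupComap A)).ker.index = ψ.ker.index := by
        rw [← MonoidHom.comap_ker, index_comap_of_surjective _ hsurj]
      have h6 := card_mul_index ψ.ker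
      have h7 : ψ.ker.index ≠ 0 := index_ne_zero_of_finite
      rw [h5, ← h3, ← h6] at h4
      apply mul_right_cancel₀ h7
      rw [h4]; ring
    have h2 : Nat.card (f.subgroupComap A).ker = Nat.card f.ker := by
      refine Nat.card_congr ⟨fun a => ⟨a.1.1, ?_⟩, fun a => ⟨⟨a.1, ?_⟩, ?_⟩, fun _ => rfl, fun _ => rfl⟩
      · exact congrArg Subtype.val (MonoidHom.mem_ker.1 a.2)
      · rw [mem_comap, MonoidHom.mem_ker.1 a.2]; exact one_mem _
      · exact Subtype.ext (MonoidHom.mem_ker.1 a.2)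
    rw [h1, h2, hcard]
    ring
  · -- solvable
    have h0 : Group.IsSolvable ψ.ker := K.ker_solv
    have hcomm : ∀ a b : (f.subgroupComap A).ker, a * b = b * a := by
      intro a b
      apply Subtype.ext
      apply Subtype.ext
      exact hc _ (congrArg Subtype.val (MonoidHom.mem_ker.1 a.2)) _
    have h1 : Group.IsSolvable (f.subgroupComap A).ker := Group.isSolvable_of_comm hcomm
    let i : (f.subgroupComap A).ker →* (ψ.comp (f.subgroupComap A)).ker := Subgroup.inclusion (fun y hy => by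
      rw [MonoidHom.mem_ker, MonoidHom.comp_apply, MonoidHom.mem_ker.1 hy, map_one])
    let g' : (ψ.comp (f.subgroupComap A)).ker →* ψ.ker :=
      ((f.subgroupComap A).comp (ψ.comp (f.subgroupComap A)).ker.subtype).codRestrict ψ.ker (fun y => y.2)
    refine Group.isSolvable_of_ker_le_range i g' ?_
    rintro ⟨y, hy⟩ hyk
    have h3 : f.subgroupComap A y = 1 := congrArg Subtype.val hyk
    exact ⟨⟨y, h3⟩, rfl⟩
  · rintro ⟨g, hg⟩
    have h1 : Equiv.Perm.sign (ψ ⟨f g, hg⟩) = 1 ↔ f g * s = s * f g := K.even ⟨f g, hg⟩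
    change Equiv.Perm.sign (ψ ⟨f g, hg⟩) = 1 ↔ g * sh = sh * g
    rw [h1]
    constructor
    · intro h
      exact comm_of_two hc hodd (htwo sh hsN) (by rw [hfs]; exact h)
    · intro h
      rw [← hfs, ← map_mul, h, map_mul]
  · intro e he n hn
    exact comm_of_two hc hodd (htwo n hn) (K.E_comm _ (hfE e he) _ (hfN n hn))
  · intro π hπ
    obtain ⟨e, he, heπ⟩ := K.E_img π hπ
    obtain ⟨e', he', rfl⟩ := hexE e he
    exact ⟨e', he', fun h => heπ h⟩
  · intro h
    have h1 : ∀ y (hy : y ∈ A), y = x → ψ ⟨y, hy⟩ = c5 := by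
      rintro y hy rfl
      exact K.psi_x hy
    exact h1 _ h hfx
  · rw [mem_normalizer_iff]
    intro n
    have hr : ∀ n, n ∈ N0 ↔ r * n * r⁻¹ ∈ N0 := mem_normalizer_iff.1 K.rN
    constructor
    · intro hn
      refine hmem _ (two_conj (htwo n hn) rh) ?_
      rw [map_mul, map_mul, map_inv, hfr]
      exact (hr _).1 (hfN n hn)
    · intro hn
      have h1 : n = rh⁻¹ * (rh * n * rh⁻¹) * rh⁻¹⁻¹ := by group
      refine hmem _ ?_ ?_
      · rw [h1]; exact two_conj (htwo _ hn) rh⁻¹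
      · have h2 := hfN _ hn
        rw [map_mul, map_mul, map_inv, hfr] at h2
        exact (hr _).2 h2
  · -- `rh` normalises `Eh`
    have hr : ∀ n, n ∈ E ↔ r * n * r⁻¹ ∈ E := mem_normalizer_iff.1 K.rE
    have h1 : C2.map (MulAut.conj rh).toMonoidHom = C2 := by
      ext y
      constructor
      · rintro ⟨w, hw, rfl⟩
        change f (rh * w * rh⁻¹) ∈ E
        rw [map_mul, map_mul, map_inv, hfr]
        exact (hr _).1 hw
      · intro hy
        refine ⟨rh⁻¹ * y * rh, ?_, ?_⟩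
        · change f (rh⁻¹ * y * rh) ∈ E
          rw [hr, map_mul, map_mul, map_inv, hfr]
          have e1 : r * (r⁻¹ * f y * r) * r⁻¹ = f y := by group
          rw [e1]
          exact hy
        · change rh * (rh⁻¹ * y * rh) * rh⁻¹ = y
          group
    have h2 : Eh.map (MulAut.conj rh).toMonoidHom = Eh := by
      rw [hEh, map_commutator, h1]
    rw [mem_normalizer_iff]
    intro y
    constructor
    · intro hy
      have h3 : rh * y * rh⁻¹ ∈ Eh.map (MulAut.conj rh).toMonoidHom := ⟨y, hy, rfl⟩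
      rwa [h2] at h3
    · intro hy
      rw [← h2] at hy
      obtain ⟨w, hw, hwy⟩ := hy
      have h4 : rh * w * rh⁻¹ = rh * y * rh⁻¹ := hwy
      have h5 : w = y := mul_left_cancel (mul_right_cancel h4)
      rw [← h5]
      exact hw
  · have h1 : rh * sh * rh⁻¹ = sh⁻¹ := by
      refine eq_of_two hc hodd (two_conj (htwo sh hsN) rh) (htwo _ (inv_mem hsN)) ?_
      rw [map_mul, map_mul, map_inv, map_inv, hfr, hfs, K.r_s, mul_inv_cancel_right]
    rw [mul_inv_eq_iff_eq_mul] at h1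
    exact h1
  · intro h
    have h1 : ∀ y (hy : y ∈ A), y = r * x * r⁻¹ → ψ ⟨y, hy⟩ = c5 ^ 2 := by
      rintro y hy rfl
      exact K.psi_r hy
    exact h1 _ h (by rw [map_mul, map_mul, map_inv, hfr, hfx])

end Cfsg.Agent.H275.Co3
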