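import Cfsg.Agent.H275.Co3.Lift

/-!
# S1920: the configuration of case B lifts to central extensions of odd order (helper275)

`exists_syl` : a 2-subgroup of `G` lifts; `exists_cb` : `CB` lifts.
-/

set_option autoImplicit false

open Subgroup Equiv.Perm

namespace Cfsg.Agent.H275.Co3

open Cfsg.Agent.H13.Co3

section lift

variable {G Gh : Type*} [Group G] [Group Gh] {f : Gh →* G}

/-- a 2-subgroup lifts to a 2-subgroup, which contains all 2-elements above it -/
theorem exists_syl [Finite Gh] (hf : Function.Surjective f) (hc : ∀ g, f g = 1 → ∀ x, g * x = x * g) (hodd : Odd (Nat.card f.ker))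
    {N0 : Subgroup G} (h2 : IsPGroup 2 N0) : ∃ Nh : Subgroup Gh, IsPGroup 2 Nh ∧ Nh.map f = N0 ∧
      Nat.card Nh = Nat.card N0 ∧ (∀ g : Gh, (∃ k, g ^ 2 ^ k = 1) → f g ∈ N0 → g ∈ Nh) := by
  classical
  have h2p : Fact (Nat.Prime 2) := ⟨Nat.prime_two⟩
  have hG : Finite G := Finite.of_surjective f hf
  obtain ⟨e, hcard⟩ := (IsPGroup.iff_card (p := 2)).1 h2
  set C : Subgroup Gh := N0.comap f with hC
  obtain ⟨S⟩ : Nonempty (Sylow 2 C) := inferInstance
  set Nh : Subgroup Gh := (S : Subgroup C).map C.subtype with hNh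
  have hN2 : IsPGroup 2 Nh := S.isPGroup'.map _
  have htwo : ∀ n ∈ Nh, ∃ k, n ^ 2 ^ k = 1 := by
    intro n hn
    obtain ⟨k, hk⟩ := hN2 ⟨n, hn⟩
    exact ⟨k, congrArg Subtype.val hk⟩
  have hfN : ∀ n ∈ Nh, f n ∈ N0 := by
    rintro _ ⟨n, -, rfl⟩
    exact n.2
  have hinj : ∀ a ∈ Nh, ∀ b ∈ Nh, f a = f b → a = b := fun a ha b hb h => eq_of_two hc hodd (htwo a ha) (htwo b hb) h
  have hcC : Nat.card C = 2 ^ e * Nat.card f.ker := by
    have h1 := (f.comp C.subtype).ker.card_mul_index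
    rw [index_ker, MonoidHom.range_comp, range_subtype] at h1
    have h2 : (f.comp C.subtype).ker = f.ker.subgroupOf C := by
      ext x
      rfl
    have h3 : C.map f = N0 := by rw [hC, map_comap_eq_self_of_surjective hf]
    have hle : f.ker ≤ C := by
      intro x hx
      rw [hC, mem_comap, MonoidHom.mem_ker.1 hx]
      exact one_mem _
    rw [h2, Nat.card_congr (subgroupOfEquivOfLe hle).toEquiv, h3, hcard, mul_comm] at h1
    exact h1.symm
  have hcS : Nat.card Nh = Nat.card N0 := by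
    have h1 : Nat.card Nh = Nat.card (S : Subgroup C) :=
      (Nat.card_congr ((S : Subgroup C).equivMapOfInjective C.subtype C.subtype_injective).toEquiv).symm
    have h2 := S.card_eq_multiplicity
    have h3 : (Nat.card C).factorization 2 = e := by
      rw [hcC, Nat.factorization_mul (by positivity) Nat.card_pos.ne', Nat.Prime.factorization_pow Nat.prime_two]
      have h4 : (Nat.card f.ker).factorization 2 = 0 := by
        apply Nat.factorization_eq_zero_of_not_dvd
        intro h5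
        exact (Nat.not_even_iff_odd.2 hodd) (even_iff_two_dvd.2 h5)
      rw [Finsupp.add_apply, h4, add_zero, Finsupp.single_eq_same]
    rw [h3] at h2
    rw [h1, hcard]
    exact h2
  have hmap : Nh.map f = N0 := by
    refine Subgroup.eq_of_le_of_card_ge ?_ ?_
    · rintro _ ⟨n, hn, rfl⟩
      exact hfN n hn
    · have h1 : Nat.card (Nh.map f) = Nat.card Nh := by
        refine (Nat.card_congr (Equiv.ofBijective (fun n : Nh => (⟨f n, mem_map_of_mem f n.2⟩ : Nh.map f)) ⟨?_, ?_⟩)).symm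
        · intro a b hab
          exact Subtype.ext (hinj a a.2 b b.2 (congrArg Subtype.val hab))
        · rintro ⟨_, n, hn, rfl⟩
          exact ⟨⟨n, hn⟩, rfl⟩
      rw [h1, hcS]
  refine ⟨Nh, hN2, hmap, hcS, ?_⟩
  intro g hg hgN
  rw [← hmap] at hgN
  obtain ⟨m, hm, hmg⟩ := hgN
  rw [← eq_of_two hc hodd (htwo m hm) hg hmg]
  exact hm

/-- the normaliser of the lift -/
theorem normalizer_lift {P : Subgroup G} {Ph : Subgroup Gh} (h2 : IsPGroup 2 Ph)
    (hmap : Ph.map f = P) (hmem : ∀ g : Gh, (∃ k, g ^ 2 ^ k = 1) → f g ∈ P → g ∈ Ph) :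
    normalizer (Ph : Set Gh) = (normalizer (P : Set G)).comap f := by
  have htwo : ∀ n ∈ Ph, ∃ k, n ^ 2 ^ k = 1 := by
    intro n hn
    obtain ⟨k, hk⟩ := h2 ⟨n, hn⟩
    exact ⟨k, congrArg Subtype.val hk⟩
  have hfP : ∀ n ∈ Ph, f n ∈ P := fun n hn => hmap ▸ mem_map_of_mem f hn
  ext g
  rw [mem_comap, mem_normalizer_iff, mem_normalizer_iff]
  constructor
  · intro h p
    constructor
    · intro hp
      rw [← hmap] at hp
      obtain ⟨m, hm, rfl⟩ := hp
      have h1 := hfP _ ((h m).1 hm)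
      rwa [map_mul, map_mul, map_inv] at h1
    · intro hp
      rw [← hmap] at hp
      obtain ⟨m, hm, hmp⟩ := hp
      have h1 : g⁻¹ * m * g ∈ Ph := by
        rw [h]
        have e : g * (g⁻¹ * m * g) * g⁻¹ = m := by group
        rw [e]; exact hm
      have h2 := hfP _ h1
      rw [map_mul, map_mul, map_inv, hmp] at h2
      have e : (f g)⁻¹ * (f g * p * (f g)⁻¹) * f g = p := by group
      rwa [e] at h2
  · intro h p
    constructor
    · intro hp
      refine hmem _ (two_conj (htwo p hp) g) ?_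
      rw [map_mul, map_mul, map_inv]
      exact (h _).1 (hfP p hp)
    · intro hp
      have e : p = g⁻¹ * (g * p * g⁻¹) * g⁻¹⁻¹ := by group
      refine hmem _ ?_ ?_
      · rw [e]; exact two_conj (htwo _ hp) g⁻¹
      · have h2 := hfP _ hp
        rw [map_mul, map_mul, map_inv] at h2
        exact (h _).2 h2

end lift

/-- **The configuration of case B lifts.** -/
theorem exists_cb {G Gh : Type*} [Group G] [Group Gh] [Finite Gh] (f : Gh →* G) (hf : Function.Surjective f)
    (hc : ∀ g, f g = 1 → ∀ x, g * x = x * g) (hodd : Odd (Nat.card f.ker)) {P N0 : Subgroup G} {z s : G}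
    {ψ : ↥(normalizer (P : Set G)) →* Equiv.Perm (Fin 6)} (C : CB P N0 z s ψ) :
    ∃ (Ph Nh : Subgroup Gh) (zh sh : Gh) (ψh : ↥(normalizer (Ph : Set Gh)) →* Equiv.Perm (Fin 6)),
      CB Ph Nh zh sh ψh ∧ normalizer (Ph : Set Gh) = (normalizer (P : Set G)).comap f ∧ Ph.map f = P ∧ Nh.map f = N0 ∧
        f zh = z ∧ f sh = s ∧
        (∀ g (hg : f g ∈ normalizer (P : Set G)) (hg' : g ∈ normalizer (Ph : Set Gh)), ψh ⟨g, hg'⟩ = ψ ⟨f g, hg⟩) := by
  classical
  have h2p : Fact (Nat.Prime 2) := ⟨Nat.prime_two⟩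
  have hG : Finite G := Finite.of_surjective f hf
  obtain ⟨Nh, hN2, hmap, hcN, hmem⟩ := exists_syl hf hc hodd C.N_two
  obtain ⟨Ph, hP2, hmapP, -, hmemP⟩ := exists_syl hf hc hodd C.P_two
  have hnorm := normalizer_lift hP2 hmapP hmemP
  have htwo : ∀ n ∈ Nh, ∃ k, n ^ 2 ^ k = 1 := by
    intro n hn
    obtain ⟨k, hk⟩ := hN2 ⟨n, hn⟩
    exact ⟨k, congrArg Subtype.val hk⟩
  have htwoP : ∀ n ∈ Ph, ∃ k, n ^ 2 ^ k = 1 := by
    intro n hn
    obtain ⟨k, hk⟩ := hP2 ⟨n, hn⟩
    exact ⟨k, congrArg Subtype.val hk⟩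
  have hfN : ∀ n ∈ Nh, f n ∈ N0 := fun n hn => hmap ▸ mem_map_of_mem f hn
  have hfP : ∀ n ∈ Ph, f n ∈ P := fun n hn => hmapP ▸ mem_map_of_mem f hn
  have hinj : ∀ a ∈ Nh, ∀ b ∈ Nh, f a = f b → a = b := fun a ha b hb h => eq_of_two hc hodd (htwo a ha) (htwo b hb) h
  have hex : ∀ n ∈ N0, ∃ m ∈ Nh, f m = n := by
    intro n hn
    rw [← hmap] at hn
    obtain ⟨m, hm, hmn⟩ := hn
    exact ⟨m, hm, hmn⟩
  have hPN : Ph ≤ Nh := fun p hp => hmem p (htwoP p hp) (C.PN (hfP p hp))
  obtain ⟨sh, hsN, hfs⟩ := hex s C.sN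
  have hfz : f (sh * sh) = z := by rw [map_mul, hfs, C.s_sq]
  have hzN : sh * sh ∈ Nh := mul_mem hsN hsN
  have hzP : sh * sh ∈ Ph := hmemP _ (htwo _ hzN) (by rw [hfz]; exact C.zP)
  -- the homomorphism
  have hle : normalizer (Ph : Set Gh) ≤ (normalizer (P : Set G)).comap f := hnorm.le
  let g0 : ↥(normalizer (Ph : Set Gh)) →* ↥(normalizer (P : Set G)) :=
    (f.comp (normalizer (Ph : Set Gh)).subtype).codRestrict _ (fun x => hle x.2)
  have hg0 : Function.Surjective g0 := by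
    rintro ⟨y, hy⟩
    obtain ⟨x, rfl⟩ := hf y
    exact ⟨⟨x, by rw [hnorm]; exact hy⟩, rfl⟩
  have hg0f : ∀ x, ((g0 x : ↥(normalizer (P : Set G))) : G) = f x := fun _ => rfl
  -- lifts of normalising elements
  have hnN : ∀ g : Gh, f g ∈ normalizer (N0 : Set G) → g ∈ normalizer (Nh : Set Gh) := by
    intro g hg
    rw [normalizer_lift hN2 hmap hmem]
    exact hg
  have hnN' : ∀ g : Gh, g ∈ normalizer (Nh : Set Gh) → f g ∈ normalizer (N0 : Set G) := by
    intro g hg
    rw [normalizer_lift hN2 hmap hmem] at hg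
    exact hg
  refine ⟨Ph, Nh, sh * sh, sh, ψ.comp g0,
    { P_two := hP2
      zP := hzP
      PN := hPN
      NH := ?_
      N_two := hN2
      card := by rw [hcN, C.card]
      sN := hsN
      s_sq := rfl
      z_sq := ?_
      z_ne := ?_
      s_cen := ?_
      sq := ?_
      comm := ?_
      cen := ?_
      z_cen := ?_
      surj := C.surj.comp hg0
      psi_N := ?_
      ker_card := ?_
      ker_solv := ?_
      ker_eq := ?_
      even := ?_
      frat := ?_
      inv_s := ?_ }, hnorm, hmapP, hmap, hfz, hfs, fun g hg hg' => rfl⟩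
  · intro n hn
    rw [hnorm]
    exact C.NH (hfN n hn)
  · exact hinj _ (mul_mem hzN hzN) _ (one_mem _) (by rw [map_mul, hfz, C.z_sq, map_one])
  · intro h
    apply C.z_ne
    rw [← hfz, h, map_one]
  · intro n hn
    exact comm_of_two hc hodd (htwo sh hsN) (by rw [hfs]; exact C.s_cen _ (hfN n hn))
  · intro n hn
    rcases C.sq _ (hfN n hn) with h | h
    · left
      exact hinj _ (mul_mem hn hn) _ (one_mem _) (by rw [map_mul, h, map_one])
    · right
      exact hinj _ (mul_mem hn hn) _ hzN (by rw [map_mul, h, hfz])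
  · intro n hn m hm'
    rcases C.comm _ (hfN n hn) _ (hfN m hm') with h | h
    · left
      exact hinj _ (mul_mem hn hm') _ (mul_mem hm' hn) (by rw [map_mul, h, map_mul])
    · right
      exact hinj _ (mul_mem hn hm') _ (mul_mem hzN (mul_mem hm' hn)) (by rw [map_mul, h, map_mul, hfz, map_mul])
  · intro n hn h
    have h1 : f n ∈ zpowers s := by
      apply C.cen _ (hfN n hn)
      intro m hm'
      obtain ⟨m', hm'', rfl⟩ := hex m hm'
      rw [← map_mul, h m' hm'', map_mul]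
    obtain ⟨i, hi⟩ := mem_zpowers_iff.1 h1
    exact mem_zpowers_iff.2 ⟨i, hinj _ (zpow_mem hsN i) _ hn (by rw [map_zpow, hfs, hi])⟩
  · intro h hh
    rw [hnorm] at hh
    exact comm_of_two hc hodd (htwo _ hzN) (by rw [hfz]; exact C.z_cen _ hh)
  · intro n hn
    exact C.psi_N (f n) (hfN n hn)
  · obtain ⟨m', hm', hcard⟩ := C.ker_card
    refine ⟨m' * Nat.card f.ker, hm'.mul hodd, ?_⟩
    have h1 : Nat.card (ψ.comp g0).ker = Nat.card ψ.ker * Nat.card g0.ker := by
      have h3 := card_mul_index g0.ker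
      rw [index_ker, MonoidHom.range_eq_top.2 hg0, card_top] at h3
      have h4 := card_mul_index ((ψ.comp g0).ker)
      have h5 : (ψ.comp g0).ker.index = ψ.ker.index := by
        rw [← MonoidHom.comap_ker, index_comap_of_surjective _ hg0]
      have h6 := card_mul_index ψ.ker
      have h7 : ψ.ker.index ≠ 0 := index_ne_zero_of_finite
      rw [h5, ← h3, ← h6] at h4
      apply mul_right_cancel₀ h7
      rw [h4]; ring
    have h2 : Nat.card g0.ker = Nat.card f.ker := by
      refine Nat.card_congr ⟨fun a => ⟨a.1.1, ?_⟩, fun a => ⟨⟨a.1, ?_⟩, ?_⟩, fun _ => rfl, fun _ => rfl⟩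
      · exact congrArg Subtype.val (MonoidHom.mem_ker.1 a.2)
      · rw [hnorm, mem_comap, MonoidHom.mem_ker.1 a.2]; exact one_mem _
      · exact Subtype.ext (MonoidHom.mem_ker.1 a.2)
    rw [h1, h2, hcard]
    ring
  · have h0 : Group.IsSolvable ψ.ker := C.ker_solv
    have hcomm : ∀ a b : g0.ker, a * b = b * a := by
      intro a b
      apply Subtype.ext
      apply Subtype.ext
      exact hc _ (congrArg Subtype.val (MonoidHom.mem_ker.1 a.2)) _
    have h1 : Group.IsSolvable g0.ker := Group.isSolvable_of_comm hcomm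
    let i : g0.ker →* (ψ.comp g0).ker := Subgroup.inclusion (fun y hy => by
      rw [MonoidHom.mem_ker, MonoidHom.comp_apply, MonoidHom.mem_ker.1 hy, map_one])
    let g' : (ψ.comp g0).ker →* ψ.ker :=
      (g0.comp (ψ.comp g0).ker.subtype).codRestrict ψ.ker (fun y => y.2)
    refine Group.isSolvable_of_ker_le_range i g' ?_
    rintro ⟨y, hy⟩ hyk
    have h3 : g0 y = 1 := congrArg Subtype.val hyk
    exact ⟨⟨y, h3⟩, rfl⟩
  · -- the kernel
    intro h hh
    obtain ⟨n, hn, o, hno, ho⟩ := C.ker_eq (g0 h) hh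
    obtain ⟨n', hn', rfl⟩ := hex n hn
    refine ⟨n', hn', n'⁻¹ * h, by group, ?_⟩
    have h1 : f (n'⁻¹ * h) = o := by
      rw [map_mul, map_inv]
      rw [hg0f] at hno
      rw [hno]; group
    -- the order divides `orderOf o * |ker f|`
    have h2 : (n'⁻¹ * (h : Gh)) ^ orderOf o ∈ f.ker := by
      rw [MonoidHom.mem_ker, map_pow, h1, pow_orderOf_eq_one]
    have h3 : orderOf ((n'⁻¹ * (h : Gh)) ^ orderOf o) ∣ Nat.card f.ker := by
      have h4 : orderOf (⟨_, h2⟩ : f.ker) ∣ Nat.card f.ker := orderOf_dvd_natCard _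
      rwa [← Subgroup.orderOf_coe] at h4
    have h4 : (n'⁻¹ * (h : Gh)) ^ (orderOf o * Nat.card f.ker) = 1 := by
      rw [pow_mul]
      exact orderOf_dvd_iff_pow_eq_one.1 h3
    exact (ho.mul hodd).of_dvd_nat (orderOf_dvd_of_pow_eq_one h4)
  · intro π hπ
    obtain ⟨h, hh, hhπ⟩ := C.even π hπ
    obtain ⟨h', rfl⟩ := hg0 h
    refine ⟨h', ?_, hhπ⟩
    intro n hn
    exact comm_of_two hc hodd (htwo n hn) (hh _ (hfN n hn))
  · intro π
    obtain ⟨h, hh, hhπ⟩ := C.frat π
    obtain ⟨h', rfl⟩ := hg0 h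
    exact ⟨h', hnN _ hh, hhπ⟩
  · intro h hh
    have h1 := C.inv_s (g0 h) (hnN' _ hh)
    change Equiv.Perm.sign (ψ (g0 h)) = 1 ↔ _
    rw [h1, hg0f]
    constructor
    · intro h2
      exact comm_of_two hc hodd (htwo sh hsN) (by rw [hfs]; exact h2)
    · intro h2
      rw [← hfs, ← map_mul, h2, map_mul]

end Cfsg.Agent.H275.Co3
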