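import Cfsg.Agent.H169.Co3.Dvd8

/-!
# S1920: linear algebra of involutions (helper275)

* `dvd_eight_any` : `8 ∣ dim V` for `4 ∘ 2^{1+4} ⟨r⟩` with `z ↦ -1`, over every field of characteristic `≠ 2`;
* `finrank_split` : the two eigenspaces of an involution on an invariant subspace;
* `finrank_le_of_anti` : an anti-isometric involution has eigenspaces of the same dimension.
-/

set_option autoImplicit false

open Subgroup Module

namespace Cfsg.Agent.H275.Co3

open Cfsg.Agent.H314.Co3 (half)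
open Cfsg.Agent.H169.Co3 (NN dvd_eight_of)

/-- **`8 ∣ dim V`** over every field of characteristic `≠ 2`. -/
theorem dvd_eight_any {G : Type*} [Group G] [Finite G] {k V : Type*} [Field k] [AddCommGroup V] [Module k V]
    [FiniteDimensional k V] {N0 R : Subgroup G} {z s r : G} (C : NN N0 z s) (h2 : (2 : k) ≠ 0)
    (hR : N0 ≤ R) (hrR : r ∈ R) (hrs : r * s = z * (s * r)) (P : ↥R →* (V →ₗ[k] V))
    (hz : z ∈ R) (hPz : ∀ v, P ⟨z, hz⟩ v = -v) : 8 ∣ finrank k V := by
  by_cases hi : ∃ i : k, i * i = -1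
  · obtain ⟨i, hi⟩ := hi
    exact dvd_eight_of C h2 hi hR hrR hrs P hz hPz
  obtain ⟨a, ha, b, hb, c, hc, d, hd, haa, hcc, hab, hcd, hac, had⟩ := C.exists_gens
  have hPm : ∀ {x y w : G} (hx : x ∈ R) (hy : y ∈ R) (hw : w ∈ R), x * y = w → ∀ v : V,
      P ⟨x, hx⟩ (P ⟨y, hy⟩ v) = P ⟨w, hw⟩ v := by
    intro x y w hx hy hw h v
    rw [← Module.End.mul_apply, ← map_mul]
    congr 2
    exact Subtype.ext h
  have hinj : ∀ x : ↥R, Function.Injective (P x) := by
    intro x u v huv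
    have h3 : ∀ w : V, P x⁻¹ (P x w) = w := by
      intro w
      rw [← Module.End.mul_apply, ← map_mul, inv_mul_cancel, map_one, Module.End.one_apply]
    rw [← h3 u, ← h3 v, huv]
  have oneR : (1 : G) ∈ R := one_mem R
  have P1 : ∀ v : V, P ⟨1, oneR⟩ v = v := by
    intro v
    have : P ⟨1, oneR⟩ = 1 := map_one P
    rw [this, Module.End.one_apply]
  set S := P ⟨s, hR C.sN⟩ with hS
  set A := P ⟨a, hR ha⟩ with hA
  set B := P ⟨b, hR hb⟩ with hB
  set Cc := P ⟨c, hR hc⟩ with hCc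
  set D := P ⟨d, hR hd⟩ with hD
  have SS : ∀ v, S (S v) = -v := fun v => by rw [hPm _ _ hz C.s_sq v, hPz]
  have AA : ∀ v, A (A v) = v := fun v => by rw [hPm _ _ oneR haa v, P1]
  have CC : ∀ v, Cc (Cc v) = v := fun v => by rw [hPm _ _ oneR hcc v, P1]
  have com : ∀ {x y : G} (hx : x ∈ R) (hy : y ∈ R), x * y = y * x → ∀ v : V,
      P ⟨x, hx⟩ (P ⟨y, hy⟩ v) = P ⟨y, hy⟩ (P ⟨x, hx⟩ v) := by
    intro x y hx hy h v
    rw [hPm hx hy (mul_mem hx hy) rfl v, hPm hy hx (mul_mem hx hy) h.symm v]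
  have anti : ∀ {x y : G} (hx : x ∈ R) (hy : y ∈ R), x * y = z * (y * x) → ∀ v : V,
      P ⟨x, hx⟩ (P ⟨y, hy⟩ v) = -(P ⟨y, hy⟩ (P ⟨x, hx⟩ v)) := by
    intro x y hx hy h v
    rw [hPm hx hy (mul_mem hx hy) rfl v, hPm hy hx (mul_mem hy hx) rfl v, ← hPz,
      hPm hz (mul_mem hy hx) (mul_mem hx hy) h.symm v]
  have AS : ∀ v, A (S v) = S (A v) := com _ _ (C.s_cen a ha)
  have CS : ∀ v, Cc (S v) = S (Cc v) := com _ _ (C.s_cen c hc)
  have AC : ∀ v, A (Cc v) = Cc (A v) := com _ _ hac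
  have AD : ∀ v, A (D v) = D (A v) := com _ _ had
  have AB : ∀ v, A (B v) = -(B (A v)) := anti _ _ hab
  have CD : ∀ v, Cc (D v) = -(D (Cc v)) := anti _ _ hcd
  -- halve twice
  have e1 := half h2 A B (hinj _) ⊤ (fun _ _ => trivial) (fun _ _ => trivial) (fun u _ => AA u) (fun u _ => AB u)
  set U : Submodule k V := ⊤ ⊓ LinearMap.ker (A - 1) with hU
  have mU : ∀ u, u ∈ U ↔ A u = u := by
    intro u
    rw [hU, top_inf_eq, LinearMap.mem_ker, LinearMap.sub_apply, Module.End.one_apply, sub_eq_zero]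
  have e2 := half h2 Cc D (hinj _) U
    (fun u hu => by rw [mU] at hu ⊢; rw [AC, hu]) (fun u hu => by rw [mU] at hu ⊢; rw [AD, hu])
    (fun u _ => CC u) (fun u _ => CD u)
  set W : Submodule k V := U ⊓ LinearMap.ker (Cc - 1) with hW
  have mW : ∀ u, u ∈ W ↔ A u = u ∧ Cc u = u := by
    intro u
    rw [hW, Submodule.mem_inf, mU, LinearMap.mem_ker, LinearMap.sub_apply, Module.End.one_apply, sub_eq_zero]
  have hSW : ∀ w ∈ W, S w ∈ W := by
    intro w hw
    rw [mW] at hw ⊢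
    exact ⟨by rw [AS, hw.1], by rw [CS, hw.2]⟩
  -- the dimension of `W` is even
  have hev : Even (finrank k W) := by
    by_contra hodd
    rw [Nat.not_even_iff_odd] at hodd
    apply hi
    refine ⟨LinearMap.det (S.restrict hSW), ?_⟩
    rw [← LinearMap.det_comp]
    have h3 : (S.restrict hSW) ∘ₗ (S.restrict hSW) = (-1 : k) • (LinearMap.id : W →ₗ[k] W) := by
      ext w
      change S (S w) = (-1 : k) • (w : V)
      rw [SS, neg_one_smul]
    rw [h3, LinearMap.det_smul, LinearMap.det_id, mul_one, hodd.neg_one_pow]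
  obtain ⟨m, hm⟩ := hev
  rw [finrank_top] at e1
  exact ⟨m, by omega⟩

section lin

variable {F V : Type*} [Field F] [AddCommGroup V] [Module F V]

/-- the rank of `N - 1` for an involution -/
theorem finrank_range_sub (h2 : (2 : F) ≠ 0) (N : V →ₗ[F] V) (hN : ∀ v, N (N v) = v) :
    finrank F (LinearMap.range (N - 1)) = finrank F (LinearMap.ker (N + 1)) := by
  have h : LinearMap.range (N - 1) = LinearMap.ker (N + 1) := by
    apply le_antisymm
    · rintro _ ⟨v, rfl⟩
      rw [LinearMap.mem_ker, LinearMap.add_apply, LinearMap.sub_apply, Module.End.one_apply, Module.End.one_apply,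
        map_sub, hN]
      abel
    · intro v hv
      rw [LinearMap.mem_ker, LinearMap.add_apply, Module.End.one_apply, add_eq_zero_iff_eq_neg] at hv
      refine ⟨-((2 : F)⁻¹ • v), ?_⟩
      rw [LinearMap.sub_apply, Module.End.one_apply, map_neg, map_smul, hv, smul_neg, neg_neg, sub_neg_eq_add,
        ← smul_add, ← two_smul F v, smul_smul, inv_mul_cancel₀ h2, one_smul]
  rw [h]

/-- an anti-isometric involution has eigenspaces of the same dimension -/
theorem finrank_le_of_anti [FiniteDimensional F V] (h2 : (2 : F) ≠ 0) (N : V →ₗ[F] V) (T : Submodule F V) (hNT : ∀ v ∈ T, N v ∈ T)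
    (hN : ∀ v ∈ T, N (N v) = v) (B : V →ₗ[F] V →ₗ[F] F) (hnd : ∀ v ∈ T, (∀ w ∈ T, B v w = 0) → v = 0)
    (hB : ∀ v ∈ T, ∀ w ∈ T, B (N v) (N w) = - B v w) (ε : F) (hε : ε * ε = 1) :
    finrank F ↥(T ⊓ LinearMap.ker (N - ε • (1 : V →ₗ[F] V))) ≤
      finrank F ↥(T ⊓ LinearMap.ker (N + ε • (1 : V →ₗ[F] V))) := by
  set X := T ⊓ LinearMap.ker (N - ε • (1 : V →ₗ[F] V)) with hX
  set Y := T ⊓ LinearMap.ker (N + ε • (1 : V →ₗ[F] V)) with hY
  have mX : ∀ u, u ∈ X ↔ u ∈ T ∧ N u = ε • u := by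
    intro u
    rw [hX, Submodule.mem_inf, LinearMap.mem_ker, LinearMap.sub_apply, LinearMap.smul_apply, Module.End.one_apply, sub_eq_zero]
  have mY : ∀ u, u ∈ Y ↔ u ∈ T ∧ N u = -(ε • u) := by
    intro u
    rw [hY, Submodule.mem_inf, LinearMap.mem_ker, LinearMap.add_apply, LinearMap.smul_apply, Module.End.one_apply,
      add_eq_zero_iff_eq_neg]
  have hXX : ∀ u ∈ X, ∀ w ∈ X, B u w = 0 := by
    intro u hu w hw
    rw [mX] at hu hw
    have h := hB u hu.1 w hw.1
    rw [hu.2, hw.2, map_smul, map_smul, LinearMap.smul_apply, smul_eq_mul, smul_eq_mul, ← mul_assoc, hε, one_mul] at h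
    have h3 : (2 : F) * B u w = 0 := by linear_combination h
    exact (mul_eq_zero.1 h3).resolve_left h2
  have hdec : ∀ t ∈ T, ∃ x ∈ X, ∃ y ∈ Y, t = x + y := by
    intro t ht
    have hinv : (2 : F)⁻¹ * 2 = 1 := inv_mul_cancel₀ h2
    refine ⟨(2 : F)⁻¹ • (t + ε • N t), (mX _).2 ⟨T.smul_mem _ (T.add_mem ht (T.smul_mem _ (hNT t ht))), ?_⟩,
      (2 : F)⁻¹ • (t - ε • N t), (mY _).2 ⟨T.smul_mem _ (T.sub_mem ht (T.smul_mem _ (hNT t ht))), ?_⟩, ?_⟩
    · have e1 : ε • (t + ε • N t) = ε • t + N t := by rw [smul_add, smul_smul, hε, one_smul]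
      rw [map_smul, map_add, map_smul, hN t ht, smul_comm ε, e1, add_comm]
    · have e1 : ε • (t - ε • N t) = ε • t - N t := by rw [smul_sub, smul_smul, hε, one_smul]
      rw [map_smul, map_sub, map_smul, hN t ht, smul_comm ε, e1, ← smul_neg, neg_sub]
    · rw [← smul_add]
      have : t + ε • N t + (t - ε • N t) = (2 : F) • t := by rw [two_smul]; abel
      rw [this, smul_smul, hinv, one_smul]
  let f : X →ₗ[F] Module.Dual F Y := (B.domRestrict X).compl₂ Y.subtype
  have hf : Function.Injective f := by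
    rw [← LinearMap.ker_eq_bot, LinearMap.ker_eq_bot']
    intro x hx
    have h1 : (x : V) = 0 := by
      apply hnd _ ((mX _).1 x.2).1
      intro w hw
      obtain ⟨x', hx', y', hy', rfl⟩ := hdec w hw
      rw [map_add, hXX _ x.2 _ hx', zero_add]
      exact LinearMap.congr_fun hx ⟨y', hy'⟩
    exact Subtype.ext h1
  calc finrank F X ≤ finrank F (Module.Dual F Y) := LinearMap.finrank_le_finrank_of_injective hf
    _ = finrank F Y := Subspace.dual_finrank_eq

/-- the eigenspaces of an involution on an invariant subspace -/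
theorem finrank_split [FiniteDimensional F V] (h2 : (2 : F) ≠ 0) (N : V →ₗ[F] V) (T : Submodule F V)
    (hNT : ∀ v ∈ T, N v ∈ T) (hN : ∀ v ∈ T, N (N v) = v) :
    finrank F T = finrank F ↥(T ⊓ LinearMap.ker (N - 1)) + finrank F ↥(T ⊓ LinearMap.ker (N + 1)) := by
  set X := T ⊓ LinearMap.ker (N - 1) with hX
  set Y := T ⊓ LinearMap.ker (N + 1) with hY
  have mX : ∀ u, u ∈ X ↔ u ∈ T ∧ N u = u := by
    intro u
    rw [hX, Submodule.mem_inf, LinearMap.mem_ker, LinearMap.sub_apply, Module.End.one_apply, sub_eq_zero]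
  have mY : ∀ u, u ∈ Y ↔ u ∈ T ∧ N u = -u := by
    intro u
    rw [hY, Submodule.mem_inf, LinearMap.mem_ker, LinearMap.add_apply, Module.End.one_apply, add_eq_zero_iff_eq_neg]
  have hinf : X ⊓ Y = ⊥ := by
    rw [eq_bot_iff]
    rintro u ⟨hu1, hu2⟩
    have h5 := ((mX u).1 hu1).2
    have h6 := ((mY u).1 hu2).2
    rw [h5] at h6
    have h7 : (2 : F) • u = 0 := by
      rw [two_smul]
      nth_rewrite 1 [h6]
      rw [neg_add_cancel]
    exact (smul_eq_zero.1 h7).resolve_left h2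
  have hsup : X ⊔ Y = T := by
    apply le_antisymm (sup_le inf_le_left inf_le_left)
    intro t ht
    have hinv : (2 : F)⁻¹ * 2 = 1 := inv_mul_cancel₀ h2
    have e : t = (2 : F)⁻¹ • (t + N t) + (2 : F)⁻¹ • (t - N t) := by
      rw [← smul_add]
      have : t + N t + (t - N t) = (2 : F) • t := by rw [two_smul]; abel
      rw [this, smul_smul, hinv, one_smul]
    rw [e]
    refine Submodule.add_mem_sup ((mX _).2 ⟨T.smul_mem _ (T.add_mem ht (hNT t ht)), ?_⟩)
      ((mY _).2 ⟨T.smul_mem _ (T.sub_mem ht (hNT t ht)), ?_⟩)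
    · rw [map_smul, map_add, hN t ht, add_comm]
    · rw [map_smul, map_sub, hN t ht, ← smul_neg, neg_sub]
  have h := Submodule.finrank_sup_add_finrank_inf_eq X Y
  rw [hinf, finrank_bot, add_zero, hsup] at h
  exact h

end lin

end Cfsg.Agent.H275.Co3
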