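import Cfsg.Agent.H275.Co3.IsoE6
import Cfsg.Agent.H318.Four.RowE6
import Cfsg.Agent.H129.Co3.E6Five
import Cfsg.Agent.H650.Co3.TFour
import Cfsg.Agent.H512.Co3.E6Sit
import Cfsg.Agent.H738.C3.Char2Rows

/-!
# S1920, case B: the row `E₆(q)` (helper275)

`q` even: `H738.C3.false_of_lieTwo`; `q ≡ 1 mod 4`: `H650.Co3.no_e6_four`; `p ≥ 5`: `H129.Co3.no_e6_five`;
`q ≡ 3 mod 4`: the configuration lifts to `E6univ F` with `z = z0` and `H512.Co3.E6.no_cb` applies.
-/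

set_option autoImplicit false

open Subgroup Module

universe u

namespace Cfsg.Agent.H275.Co3

open Cfsg Cfsg.Lie
open Cfsg.Agent.ChevalleyStructure.E6Min Cfsg.Agent.ChevalleyStructure.E6Min.Basic
  Cfsg.Agent.ChevalleyStructure.E6Min.Adjoint
open Cfsg.Agent.H512.DFive (z0)
open Cfsg.Agent.H13.Co3 (CB)

/-- the configuration lifts from `E₆(F)` to the 27-dimensional group, with `z = z0` -/
theorem exists_E6univ {G : Type u} [Group G] {F : Type} [Field F] [Fintype F] (ho : Odd (Fintype.card F))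
    (h3 : 3 ≤ Fintype.card F) (h2 : (2 : F) ≠ 0) (e : G ≃* ↥(chevE6.group F)) {P N0 : Subgroup G} {z s : G}
    {ψ : ↥(normalizer (P : Set G)) →* Equiv.Perm (Fin 6)} (C : CB P N0 z s ψ) :
    ∃ (P' N0' : Subgroup ↥(E6univ F)) (z' s' : ↥(E6univ F))
      (ψ' : ↥(normalizer (P' : Set ↥(E6univ F))) →* Equiv.Perm (Fin 6)),
      CB P' N0' z' s' ψ' ∧ (z' : GL I27 F) = z0 F := by
  have hk : ∀ g, ((e.symm : ↥(chevE6.group F) →* G).comp (ad F)) g = 1 → ad F g = 1 := fun g hg =>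
    e.symm.injective (by rw [map_one]; exact hg)
  have hodd : Odd (Nat.card ((e.symm : ↥(chevE6.group F) →* G).comp (ad F)).ker) := by
    have h1 : IsPGroup 3 ((e.symm : ↥(chevE6.group F) →* G).comp (ad F)).ker := by
      rintro ⟨g, hg⟩
      exact ⟨1, Subtype.ext (by
        rw [pow_one]; exact (Cfsg.Agent.H318.Four.RowE6.ker3 F g (hk g hg)).2)⟩
    have : Fact (Nat.Prime 3) := ⟨Nat.prime_three⟩
    obtain ⟨k, hk⟩ := (IsPGroup.iff_card (p := 3)).1 h1
    rw [hk]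
    exact (show Odd 3 by decide).pow
  obtain ⟨Ph, Nh, zh, sh, ψh, Ch, -⟩ := exists_cb ((e.symm : ↥(chevE6.group F) →* G).comp (ad F))
    (e.symm.surjective.comp ad_surjective)
    (fun g hg x => ((Cfsg.Agent.H318.Four.RowE6.ker3 F g (hk g hg)).1 x).symm) hodd C
  exact exists_z0 ho h3 h2 Ch

/-- **The row `E₆(q)`.** -/
theorem row_e6 : Cfsg.Agent.H527.Co3.Row.{u} @Lie.IsoChevE6 := by
  intro G _ _ _ h P N0 z s ψ C
  obtain ⟨F, _, _, ⟨e⟩⟩ := h
  obtain ⟨p, hp⟩ := CharP.exists F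
  have hpp : Fact p.Prime := ⟨(CharP.char_is_prime_or_zero F p).resolve_right (CharP.char_ne_zero_of_finite F p)⟩
  by_cases hp2 : p = 2
  · subst hp2
    exact Cfsg.Agent.H738.C3.false_of_lieTwo C
      (Or.inr (Or.inr (Or.inr (Or.inr (Or.inr (Or.inr (Or.inl
        ⟨F, inferInstance, inferInstance, hp, Or.inr (Or.inr (Or.inl ⟨e⟩))⟩)))))))
  by_cases h41 : Fintype.card F % 4 = 1
  · exact Cfsg.Agent.H650.Co3.no_e6_four h41 e C
  by_cases hp3 : p = 3
  swap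
  · exact Cfsg.Agent.H129.Co3.no_e6_five p hp2 hp3 e C
  subst hp3
  obtain ⟨m, -, hm⟩ := FiniteField.card F 3
  have ho : Odd (Fintype.card F) := by
    rw [hm]; exact (show Odd 3 by decide).pow
  have h3 : 3 ≤ Fintype.card F := by
    rw [hm]
    calc 3 = 3 ^ 1 := by norm_num
      _ ≤ 3 ^ (m : ℕ) := Nat.pow_le_pow_right (by norm_num) m.pos
  have h2 : (2 : F) ≠ 0 := by
    intro h
    have h4 : ((2 : ℕ) : F) = 0 := by exact_mod_cast h
    rw [CharP.cast_eq_zero_iff F 3] at h4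
    omega
  obtain ⟨P', N0', z', s', ψ', C', hz'⟩ := exists_E6univ ho h3 h2 e C
  have hmod : Fintype.card F % 4 = 3 := by
    rw [Nat.odd_iff] at ho; omega
  exact Cfsg.Agent.H512.Co3.E6.no_cb hmod C' hz'

end Cfsg.Agent.H275.Co3
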